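import Cfsg.Agent.Lib.Helper21.DefectCenter

set_option autoImplicit false
open Cfsg
open scoped ComplexConjugate
open Cfsg.Agent.Lib.Helper20 Cfsg.Agent.Lib.Helper81

namespace Cfsg.Agent.Lib.Helper21

section ppart

variable {G : Type*} [Group G] {p : ℕ}

theorem isPPart_eq_zpow (hp : p.Prime) {g x : G} (h : IsPPart p g x) : ∃ n : ℤ, g ^ n = x := by
  obtain ⟨N, hN, -⟩ := exists_zpow_eq_pPart hp h h (i := 1) (by
    intro hd
    have := Int.natCast_dvd_natCast.1 (by simpa using hd : (p : ℤ) ∣ ((1 : ℕ) : ℤ))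
    exact hp.one_lt.ne' (Nat.dvd_one.1 this))
  exact ⟨N, by simpa using hN⟩

/-- The `p`-part of an element of a subgroup, computed in the subgroup. -/
theorem isPPart_subgroup (hp : p.Prime) {N : Subgroup G} {l : N} {z : G}
    (h : IsPPart p (l : G) z) : ∃ z' : N, (z' : G) = z ∧ IsPPart p l z' := by
  obtain ⟨n, hn⟩ := isPPart_eq_zpow hp h
  obtain ⟨y, h1, h2, ⟨k, h3⟩, h4⟩ := h
  refine ⟨l ^ n, by simpa using hn, (l ^ n)⁻¹ * l, by group, ?_, ⟨k, ?_⟩, ?_⟩
  · have c1 : Commute (l ^ n) l := (Commute.refl l).zpow_left n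
    exact (Commute.refl (l ^ n)).inv_right.mul_right c1
  · rw [← h3, ← hn, ← Subgroup.orderOf_coe]
    simp
  · have h5 : (((l ^ n)⁻¹ * l : N) : G) = y := by
      have : (((l ^ n)⁻¹ * l : N) : G) = ((l : G) ^ n)⁻¹ * (l : G) := by simp
      rw [this, hn, ← h1]; group
    rw [← Subgroup.orderOf_coe, h5]
    exact h4

end ppart

variable {G : Type*} [Group G] [Fintype G] {p : ℕ} {M : Ideal AlgInt}

omit [Fintype G] in
theorem isDefectGroup_isPGroup {B : Set (IrrCharacter G)} {D : Subgroup G}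
    (hD : IsDefectGroup p M B D) : IsPGroup p D := by
  obtain ⟨g, _, S, rfl⟩ := hD
  exact S.2.map _

/-- If the central character of `B` is a unit at `g`, some conjugate of `g` centralises the defect
group `P` and has its `p`-part in the centre of `P`. -/
theorem exists_conj_centralizing_defectGroup [Fact p.Prime] (hM : IsPModular p M)
    (B : Set (IrrCharacter G)) (hB : IsPBlock M B) (P : Subgroup G) (hP : IsDefectGroup p M B P)
    (g : G) (hg : ∃ χ ∈ B, ¬ MemLocalIdeal M (centralChar (χ : G → ℂ) g)) :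
    ∃ x : G, IsConj g x ∧ x ∈ Subgroup.centralizer (P : Set G) ∧
      ∀ z : G, IsPPart p x z → z ∈ P ∧ ∀ w ∈ P, z * w = w * z := by
  classical
  have hp := hM.1
  haveI : Fintype (Subgroup.normalizer (P : Set G)) := Fintype.ofFinite _
  haveI : Fintype (ConjClasses (Subgroup.normalizer (P : Set G))) := Fintype.ofFinite _
  have hPp : IsPGroup p P := isDefectGroup_isPGroup hP
  obtain ⟨b, hb1, hb2, hb3⟩ := exists_block_normalizer hM P hPp B hB hP
  obtain ⟨χ, hχ, hχg⟩ := hg
  obtain ⟨ξ, hξ⟩ := isPBlock_nonempty hM hb1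
  have h1 := inducedCentralChar_sub_brauerCentralChar hM hPp Subgroup.le_normalizer le_rfl ξ g
  have h2 := hb3.2.2 ξ hξ χ hχ g
  have h3 : ¬ MemLocalIdeal M (brauerCentralChar P (Subgroup.normalizer (P : Set G)) (ξ : _ → ℂ) g) := by
    intro h4
    apply hχg
    have := memLocalIdeal_sub hM (memLocalIdeal_add hM h4 h1) h2
    convert this using 1; ring
  rw [brauerCentralChar_eq_omega, omega_eq_sum_classes (irr_classFunction ξ)
    (trunc_classFunction le_rfl (classInd_classFunction g))] at h3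
  obtain ⟨l, hl1, hl2⟩ : ∃ l : Subgroup.normalizer (P : Set G),
      trunc P (Subgroup.normalizer (P : Set G)) (classInd g) l ≠ 0 ∧
      ¬ MemLocalIdeal M (centralChar (ξ : _ → ℂ) l) := by
    by_contra hcon
    push Not at hcon
    apply h3
    apply memLocalIdeal_sum hM
    intro C _
    by_cases h4 : trunc P (Subgroup.normalizer (P : Set G)) (classInd g) (Quotient.out C) = 0
    · rw [h4, zero_mul]; exact memLocalIdeal_zero hM
    · exact memLocalIdeal_mul_left hM
        (trunc_memLocalRing hM P _ (classInd_memLocalRing hM g) _) (hcon _ h4)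
  have hlc : (l : G) ∈ Subgroup.centralizer (P : Set G) := by
    by_contra h; exact hl1 (trunc_of_not_mem _ _ _ h)
  have hgl : IsConj g (l : G) := by
    by_contra h; apply hl1; rw [trunc_of_mem _ _ _ hlc, classInd_neg h]
  refine ⟨l, hgl, hlc, ?_⟩
  intro z hz
  obtain ⟨n, hn⟩ := isPPart_eq_zpow hp hz
  obtain ⟨z', hz'1, hz'2⟩ := isPPart_subgroup hp hz
  have hξl : (ξ : _ → ℂ) l ≠ 0 := by
    intro h0
    apply hl2
    rw [centralChar, h0, mul_zero, zero_div]
    exact memLocalIdeal_zero hM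
  have hex : ∃ D', IsDefectGroup p M b D' ∧ z' ∈ D' := by
    by_contra hcon
    push Not at hcon
    exact hξl (vanish_off_defect_groups hM b hb1 hz'2 hcon ξ hξ)
  obtain ⟨D', hD', hzD'⟩ := hex
  haveI : (P.subgroupOf (Subgroup.normalizer (P : Set G))).Normal := Subgroup.normal_in_normalizer
  have hPp' : IsPGroup p (P.subgroupOf (Subgroup.normalizer (P : Set G))) := hPp.comap_subtype
  have hle := normal_pSubgroup_le_defectGroup hM b hb1 D' hD' _ hPp'
  have heq : P.subgroupOf (Subgroup.normalizer (P : Set G)) = D' :=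
    Subgroup.eq_of_le_of_card_ge hle (by
      rw [card_defectGroup hM b hb1 D' hD', card_defectGroup hM b hb1 _ hb2])
  rw [← heq, Subgroup.mem_subgroupOf, hz'1] at hzD'
  refine ⟨hzD', ?_⟩
  intro w hw
  rw [Subgroup.mem_centralizer_iff] at hlc
  have c1 : Commute w (l : G) := hlc w hw
  rw [← hn]
  exact (c1.zpow_right n).symm.eq

/-- If `b` induces `B`, every element of the centre of a defect group of `B` is conjugate to an
element of the centre of a defect group of `b`. -/
theorem center_defectGroup_fusion [Fact p.Prime] (hM : IsPModular p M) {H : Subgroup G}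
    {b : Set (IrrCharacter H)} {B : Set (IrrCharacter G)} (hind : IsInducedBlock M H b B)
    (D : Subgroup H) (hD : IsDefectGroup p M b D) (P : Subgroup G) (hP : IsDefectGroup p M B P)
    (x : G) (hx : x ∈ P) (hxc : ∀ w ∈ P, x * w = w * x) :
    ∃ g : G, g * x * g⁻¹ ∈ D.map H.subtype ∧
      ∀ w ∈ D.map H.subtype, (g * x * g⁻¹) * w = w * (g * x * g⁻¹) := by
  classical
  have hp := hM.1
  haveI : Fintype H := Fintype.ofFinite _
  haveI : Fintype (ConjClasses H) := Fintype.ofFinite _
  have hb := hind.1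
  have hB := hind.2.1
  obtain ⟨ξ, hξ⟩ := isPBlock_nonempty hM hb
  obtain ⟨χ, hχ⟩ := isPBlock_nonempty hM hB
  have hP' := hP
  rw [isDefectGroup_iff] at hP'
  obtain ⟨y, hy, hyP⟩ := hP'
  have h1 := centralChar_unit_at_center hM B hB y hy P hyP x hx hxc χ hχ
  have h2 := hind.2.2 ξ hξ χ hχ (x * y)
  have h3 : ¬ MemLocalIdeal M (inducedCentralChar H (ξ : H → ℂ) (x * y)) := by
    intro h4
    apply h1
    have := memLocalIdeal_sub hM h4 h2
    rwa [sub_sub_cancel] at this
  rw [inducedCentralChar_eq_omega, omega_eq_sum_classes (irr_classFunction ξ)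
    (res_classFunction H (classInd_classFunction (x * y)))] at h3
  obtain ⟨l, hl1, hl2⟩ : ∃ l : H, IsConj (x * y) (l : G) ∧
      ¬ MemLocalIdeal M (centralChar (ξ : _ → ℂ) l) := by
    by_contra hcon
    push Not at hcon
    apply h3
    apply memLocalIdeal_sum hM
    intro C _
    by_cases h4 : IsConj (x * y) ((Quotient.out C : H) : G)
    · exact memLocalIdeal_mul_left hM (classInd_memLocalRing hM _ _) (hcon _ h4)
    · rw [classInd_neg h4, zero_mul]; exact memLocalIdeal_zero hM
  obtain ⟨l', hl'1, hl'2, hl'3⟩ := exists_conj_centralizing_defectGroup hM b hb D hD l ⟨ξ, hξ, hl2⟩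
  have hconj : IsConj (x * y) (l' : G) := by
    obtain ⟨c, hc⟩ := isConj_iff.1 hl'1
    exact hl1.trans (isConj_iff.2 ⟨c, congrArg Subtype.val hc⟩)
  obtain ⟨t, ht⟩ := isConj_iff.1 hconj
  have hreg : ¬ p ∣ orderOf y := by
    intro hs
    apply hy.2.1
    rw [blockCoeff_eq_zero_of_singular hM B hB hs]
    exact memLocalIdeal_zero hM
  have hc : Commute x y := by
    have := hyP.le hx
    rwa [Subgroup.mem_centralizer_singleton_iff] at this
  obtain ⟨k, hk⟩ := (IsPGroup.iff_orderOf.1 hyP.isPGroup) ⟨x, hx⟩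
  rw [← Subgroup.orderOf_coe] at hk
  have ho : ∀ u : G, orderOf (t * u * t⁻¹) = orderOf u := fun u =>
    (MulAut.conj t).orderOf_eq u
  have hpp : IsPPart p (l' : G) (t * x * t⁻¹) := by
    refine ⟨t * y * t⁻¹, ?_, ?_, ⟨k, ?_⟩, ?_⟩
    · rw [← ht]; group
    · show t * x * t⁻¹ * (t * y * t⁻¹) = t * y * t⁻¹ * (t * x * t⁻¹)
      have e1 : t * x * t⁻¹ * (t * y * t⁻¹) = t * (x * y) * t⁻¹ := by group
      have e2 : t * y * t⁻¹ * (t * x * t⁻¹) = t * (y * x) * t⁻¹ := by group
      rw [e1, e2, hc.eq]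
    · rw [ho]; exact hk
    · rw [ho]; exact hreg
  obtain ⟨z', hz'1, hz'2⟩ := isPPart_subgroup hp hpp
  obtain ⟨hz'3, hz'4⟩ := hl'3 z' hz'2
  refine ⟨t, ⟨z', hz'3, hz'1⟩, ?_⟩
  rintro _ ⟨w, hw, rfl⟩
  rw [← hz'1]
  exact congrArg Subtype.val (hz'4 w hw)

/-- If `b` induces `B`, then `b` has defect zero iff `B` has. -/
theorem blockDefect_eq_zero_iff_of_induced [Fact p.Prime] (hM : IsPModular p M) {H : Subgroup G}
    {b : Set (IrrCharacter H)} {B : Set (IrrCharacter G)} (hind : IsInducedBlock M H b B) :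
    blockDefect p b = 0 ↔ blockDefect p B = 0 := by
  classical
  have hp := hM.1
  haveI : Fintype H := Fintype.ofFinite _
  have hb := hind.1
  have hB := hind.2.1
  obtain ⟨D, hD⟩ := exists_isDefectGroup hM b hb
  have hDc := card_defectGroup hM b hb D hD
  constructor
  · intro h0
    rw [h0, pow_zero] at hDc
    have hDbot : D = ⊥ := Subgroup.card_eq_one.1 hDc
    obtain ⟨P, hP⟩ := exists_isDefectGroup hM B hB
    have hPc := card_defectGroup hM B hB P hP
    by_contra hne
    have hnt : Nontrivial P := by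
      rw [← Finite.one_lt_card_iff_nontrivial, hPc]
      exact Nat.one_lt_pow hne hp.one_lt
    have hcn := (isDefectGroup_isPGroup hP).center_nontrivial
    obtain ⟨c, hc⟩ := exists_ne (1 : Subgroup.center P)
    obtain ⟨g, hg, -⟩ := center_defectGroup_fusion hM hind D hD P hP ((c : P) : G) (c : P).2 (by
      intro w hw
      have := Subgroup.mem_center_iff.1 c.2 ⟨w, hw⟩
      exact (congrArg Subtype.val this).symm)
    rw [hDbot, Subgroup.map_bot, Subgroup.mem_bot] at hg
    apply hc
    apply Subtype.ext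
    apply Subtype.ext
    have : ((c : P) : G) = g⁻¹ * (g * ((c : P) : G) * g⁻¹) * g := by group
    rw [this, hg]
    simp
  · intro h0
    obtain ⟨E, hE, hDE⟩ := defectGroup_le_of_induced hM hind D hD
    have hEc := card_defectGroup hM B hB E hE
    rw [h0, pow_zero] at hEc
    have hEbot : E = ⊥ := Subgroup.card_eq_one.1 hEc
    rw [hEbot, le_bot_iff, Subgroup.map_eq_bot_iff_of_injective _ H.subtype_injective] at hDE
    rw [hDE, Subgroup.card_bot] at hDc
    by_contra hne
    exact (Nat.one_lt_pow hne hp.one_lt).ne hDc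

end Cfsg.Agent.Lib.Helper21
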