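import Mathlib
import Cfsg.Prelude.Def_Characters
import Cfsg.Agent.Lib.Helper21.GalOddA

set_option autoImplicit false

/-!
Existence of an irreducible character over `θ` fixed by a Galois twist of `2`-power order,
for a normal subgroup of odd index.
-/

namespace Cfsg.Agent.Lib.Helper21.GalOdd

open Cfsg Cfsg.Agent.Lib.Helper20 Cfsg.Agent.Lib.Helper5
open scoped ComplexConjugate

section
variable {G : Type*} [Group G] [Fintype G] {N : Subgroup G} [Fintype N]

/-- the norm of the induced character is the index of `N` in the inertia group -/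
theorem inner_ind_self (hN : N.Normal) {θ : N → ℂ} (hθ : IsIrrCharacter N θ) :
    ∃ R : ℕ, R ∣ N.index ∧ classInner (indFun N θ) (indFun N θ) = R := by
  classical
  have hθcl := isClassFunction_of_isCharacter (isCharacter_of_isIrrCharacter hθ)
  have hle : N ≤ inertia hN θ := le_inertia hN hθcl
  obtain ⟨R, hR⟩ := Subgroup.card_dvd_of_le hle
  have hNpos : 0 < Nat.card N := Nat.card_pos
  refine ⟨R, ?_, ?_⟩
  · have h1 := Subgroup.card_mul_index (inertia hN θ)
    have h2 := Subgroup.card_mul_index N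
    rw [hR, ← h2, mul_assoc] at h1
    exact ⟨_, (Nat.eq_of_mul_eq_mul_left hNpos h1).symm⟩
  · rw [Cfsg.Agent.Lib.Helper19.frobenius_reciprocity N θ _
      (Cfsg.Agent.Lib.Helper19.indFun_isClassFunction N θ), indFun_restrict_normal hN,
      classInner_smul_right, classInner_sum_right]
    have h1 : ∀ x : G, classInner θ (cjF hN θ x) = if x ∈ inertia hN θ then 1 else 0 := by
      intro x
      rw [classInner_irr hθ (isIrrCharacter_cjF hN hθ x)]
      by_cases hx : x ∈ inertia hN θ
      · rw [if_pos hx, if_pos ((mem_inertia hN θ x).mp hx).symm]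
      · rw [if_neg hx, if_neg (fun h => hx ((mem_inertia hN θ x).mpr h.symm))]
    simp_rw [h1]
    rw [Finset.sum_boole]
    have h2 : (Finset.univ.filter (fun x : G => x ∈ inertia hN θ)).card
        = Nat.card (inertia hN θ) := by
      rw [Nat.card_eq_fintype_card, Fintype.card_subtype]
    rw [h2, hR, map_inv₀, Complex.conj_natCast]
    have h3 : (Nat.card N : ℂ) ≠ 0 := by exact_mod_cast hNpos.ne'
    push_cast
    field_simp

/-- Parseval for the induced character -/
theorem inner_ind_self_eq_sum [Fintype (IrrCharacter G)] {θ : N → ℂ}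
    (ee : IrrCharacter G → ℕ)
    (hee : ∀ χ : IrrCharacter G, classInner (fun n : N => (χ : G → ℂ) n) θ = ee χ) :
    classInner (indFun N θ) (indFun N θ) = ((∑ χ : IrrCharacter G, ee χ ^ 2 : ℕ) : ℂ) := by
  have hcl := Cfsg.Agent.Lib.Helper19.indFun_isClassFunction N θ
  have h0 : ∀ χ : IrrCharacter G, classInner (indFun N θ) (χ : G → ℂ) = ee χ := by
    intro χ
    rw [Cfsg.Agent.Lib.Helper19.frobenius_reciprocity N θ _
      (isClassFunction_of_isCharacter (isCharacter_of_isIrrCharacter χ.2)),
      ← classInner_conj_symm, hee, Complex.conj_natCast]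
  conv_lhs =>
    lhs
    rw [eq_sum_classInner_smul hcl]
  rw [classInner_sum_left]
  push_cast
  apply Finset.sum_congr rfl
  intro χ _
  rw [classInner_smul_left, ← classInner_conj_symm (indFun N θ) (χ : G → ℂ), h0,
    Complex.conj_natCast]
  ring

theorem sq_cast_zmod_two (n : ℕ) : ((n ^ 2 : ℕ) : ZMod 2) = if Odd n then 1 else 0 := by
  have h2 : (2 : ZMod 2) = 0 := rfl
  split_ifs with h
  · obtain ⟨r, rfl⟩ := h
    push_cast
    linear_combination (2 * (r : ZMod 2) ^ 2 + 2 * r) * h2
  · rw [Nat.not_odd_iff_even] at h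
    obtain ⟨r, rfl⟩ := h
    push_cast
    linear_combination (2 * (r : ZMod 2) ^ 2) * h2

/-- Some irreducible character over the fixed character `θ` is fixed by the twist. -/
theorem exists_fixed (hN : N.Normal) (hidx : Odd N.index) (k e : ℕ)
    (hk : Nat.Coprime k (Nat.card G)) (hke : k ^ (2 ^ e) ≡ 1 [MOD Nat.card G])
    {θ : N → ℂ} (hθ : IsIrrCharacter N θ) (hθfix : ∀ n : N, θ (n ^ k) = θ n) :
    ∃ χ : G → ℂ, IsIrrCharacter G χ ∧ classInner (fun n : N => χ n) θ ≠ 0 ∧
      ∀ g, χ (g ^ k) = χ g := by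
  classical
  have := finite_irrCharacter (G := G)
  have := Fintype.ofFinite (IrrCharacter G)
  have hkN : k.Coprime (Nat.card N) :=
    Nat.Coprime.coprime_dvd_right (Subgroup.card_subgroup_dvd_card N) hk
  have hee : ∀ χ : IrrCharacter G, ∃ n : ℕ, classInner (fun n : N => (χ : G → ℂ) n) θ = n :=
    fun χ => isCharacter_classInner_nat
      (isCharacter_restrict (isCharacter_of_isIrrCharacter χ.2) N) hθ
  choose ee hee using hee
  obtain ⟨R, hRdvd, hR⟩ := inner_ind_self hN hθ
  have hRodd : Odd R := Odd.of_dvd_nat hidx hRdvd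
  rw [inner_ind_self_eq_sum ee hee] at hR
  have hR' : ∑ χ : IrrCharacter G, ee χ ^ 2 = R := by exact_mod_cast hR
  let tw : IrrCharacter G → IrrCharacter G := fun χ =>
    ⟨fun g => (χ : G → ℂ) (g ^ k), Cfsg.Agent.Lib.Helper79.IsIrrCharacter.pow_coprime χ.2 k hk⟩
  have htw : ∀ χ, ee (tw χ) = ee χ := by
    intro χ
    have h1 := Cfsg.Agent.Lib.Helper79.classInner_pow_coprime k hkN
      (fun n : N => (χ : G → ℂ) n) θ
    have h2 : (fun n : N => θ (n ^ k)) = θ := funext hθfix
    have h3 : (fun n : N => (χ : G → ℂ) ((n ^ k : N) : G)) = fun n : N => (tw χ : G → ℂ) n := by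
      funext n
      rw [Subgroup.coe_pow]
    rw [h2, h3, hee, hee] at h1
    exact_mod_cast h1
  let X := {χ : IrrCharacter G // Odd (ee χ)}
  let f : Function.End X := fun χ => ⟨tw χ.1, by rw [htw]; exact χ.2⟩
  have hfpow : ∀ (j : ℕ) (χ : X) (g : G), ((f ^ j) χ).1.1 g = χ.1.1 (g ^ (k ^ j)) := by
    intro j
    induction j with
    | zero =>
      intro χ g
      rw [pow_zero, pow_zero, pow_one]
      rfl
    | succ j ih =>
      intro χ g
      rw [pow_succ]
      show ((f ^ j) (f χ)).1.1 g = _
      rw [ih]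
      show χ.1.1 ((g ^ k ^ j) ^ k) = _
      rw [← pow_mul, ← pow_succ]
  have hf1 : f ^ 2 ^ e = 1 := by
    funext χ
    apply Subtype.ext
    apply Subtype.ext
    funext g
    rw [hfpow]
    have h3 : g ^ (k ^ 2 ^ e) = g := by
      rw [← pow_mod_natCard, hke, pow_mod_natCard, pow_one]
    rw [h3]
    rfl
  have hmod := Equiv.Perm.card_fixedPoints_modEq (p := 2) hf1
  have hcard : (R : ZMod 2) = (Fintype.card X : ZMod 2) := by
    rw [← hR', Fintype.card_subtype]
    push_cast
    rw [← Finset.sum_boole]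
    apply Finset.sum_congr rfl
    intro χ _
    have := sq_cast_zmod_two (ee χ)
    push_cast at this
    exact this
  rw [ZMod.natCast_eq_natCast_iff] at hcard
  have hmod2 := hcard.trans hmod
  have hfix : 0 < Fintype.card (Function.fixedPoints f) := by
    by_contra h0
    have h5 : Fintype.card (Function.fixedPoints f) = 0 := by omega
    rw [h5] at hmod2
    have h6 := Nat.odd_iff.mp hRodd
    unfold Nat.ModEq at hmod2
    omega
  obtain ⟨⟨χ0, hχ0⟩⟩ := Fintype.card_pos_iff.mp hfix
  refine ⟨χ0.1.1, χ0.1.2, ?_, ?_⟩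
  · rw [hee]
    have h7 : ee χ0.1 ≠ 0 := by
      intro h
      have := χ0.2
      rw [h] at this
      exact absurd this (by decide)
    exact_mod_cast h7
  · intro g
    exact congrFun (congrArg (fun χ : X => χ.1.1) hχ0) g

end

end Cfsg.Agent.Lib.Helper21.GalOdd
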