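import Mathlib
import Cfsg.Prelude.Def_Characters
import Cfsg.Agent.Lib.Helper21.GalOddA
import Cfsg.Agent.Lib.Helper82.Linear
import Cfsg.Agent.Lib.Helper19.LinChar
import Cfsg.Agent.S0856
import Cfsg.Agent.S0886
import Cfsg.Agent.S0888

set_option autoImplicit false

/-!
An invariant irreducible character `θ` of a normal subgroup of odd index which is fixed by the
twist has an extension fixed by the twist.
-/

namespace Cfsg.Agent.Lib.Helper21.GalOdd

open Cfsg Cfsg.Agent.Lib.Helper20 Cfsg.Agent.Lib.Helper5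
open scoped ComplexConjugate

universe u

section
variable {G : Type u} [Group G] [Fintype G] {N : Subgroup G} [Fintype N]

/-- from an extension to an extension fixed by the twist -/
theorem fixed_ext_of_ext (hN : N.Normal) (hidx : Odd N.index) (k : ℕ)
    (hk : Nat.Coprime k (Nat.card G)) (hk₂ : ∀ g : G, Odd (orderOf g) → g ^ k = g⁻¹)
    {θ : N → ℂ} (hθ : IsIrrCharacter N θ) (hθfix : ∀ n : N, θ (n ^ k) = θ n)
    {η : G → ℂ} (hη : IsIrrCharacter G η) (hext : ∀ n : N, η n = θ n) :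
    ∃ χ : G → ℂ, IsIrrCharacter G χ ∧ (∀ n : N, χ n = θ n) ∧ ∀ g, χ (g ^ k) = χ g := by
  have := hN
  have hηcl := isClassFunction_of_isCharacter (isCharacter_of_isIrrCharacter hη)
  have hinv : ∀ (g : G) (n : N), θ ⟨g * n * g⁻¹, hN.conj_mem (n : G) n.2 g⟩ = θ n := by
    intro g n
    rw [← hext, ← hext]
    exact hηcl n g
  have h1θ : ((fun _ => 1 : N → ℂ) * θ) = θ := by
    funext n
    simp
  have hbij := Cfsg.Agent.S0856.result N (fun _ => 1) θ
    Cfsg.Agent.Lib.Helper4.isIrrCharacter_one hθ (fun _ _ => rfl) hinv (by rw [h1θ]; exact hθ)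
    η hη hext
  have hη' := Cfsg.Agent.Lib.Helper79.IsIrrCharacter.pow_coprime hη k hk
  have hmem : (fun g => η (g ^ k)) ∈ {ψ : G → ℂ | IsIrrCharacter G ψ ∧
      classInner (indFun N ((fun _ => 1 : N → ℂ) * θ)) ψ ≠ 0} := by
    refine ⟨hη', ?_⟩
    rw [h1θ, Cfsg.Agent.Lib.Helper19.frobenius_reciprocity N θ _
      (isClassFunction_of_isCharacter (isCharacter_of_isIrrCharacter hη'))]
    have h2 : (fun n : N => η ((n : G) ^ k)) = θ := by
      funext n
      rw [← Subgroup.coe_pow, hext, hθfix]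
    rw [h2, classInner_irr_self hθ]
    exact one_ne_zero
  obtain ⟨β, ⟨hβ, hβc⟩, hβη⟩ := hbij.surjOn hmem
  have hβch := isCharacter_of_isIrrCharacter hβ
  have hβ1 : β 1 = 1 := by
    have h3 := congrFun hβη 1
    simp only [Pi.mul_apply, one_pow] at h3
    exact mul_right_cancel₀ (Cfsg.Agent.Lib.Helper4.irr_apply_one_ne_zero hη)
      (h3.trans (one_mul _).symm)
  have hker : ∀ x ∈ N, β x = β 1 := by
    apply ker_of_inner_one hN hβ
    rw [Cfsg.Agent.Lib.Helper19.frobenius_reciprocity N _ _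
      (isClassFunction_of_isCharacter hβch)] at hβc
    exact classInner_ne_zero_symm hβc
  obtain ⟨f, rfl⟩ := Cfsg.Agent.Lib.Helper19.exists_hom_of_linear β ⟨hβch, hβ1⟩
  have hfN : ∀ x ∈ N, f x = 1 := by
    intro x hx
    have h4 := hker x hx
    rw [hβ1] at h4
    exact Units.ext h4
  obtain ⟨j, hj⟩ := hidx
  have hfm : ∀ g, f g ^ (2 * j + 1) = 1 := by
    intro g
    rw [← map_pow, ← hj]
    exact hfN _ (Subgroup.pow_index_mem N g)
  have hμ2 : ∀ g, (f ^ (j + 1)) g * (f ^ (j + 1)) g = f g := by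
    intro g
    rw [MonoidHom.pow_apply, ← pow_add]
    have h5 : j + 1 + (j + 1) = (2 * j + 1) + 1 := by ring
    rw [h5, pow_succ, hfm, one_mul]
  have hμk : ∀ g, (f ^ (j + 1)) (g ^ k) * (f ^ (j + 1)) g = 1 := by
    intro g
    rw [← map_mul, MonoidHom.pow_apply,
      hfN _ (pow_mul_self_mem hN (hj ▸ odd_two_mul_add_one j) k hk₂ g), one_pow]
  have hμc := Cfsg.Agent.Lib.Helper19.isCharacter_homFun (f ^ (j + 1))
  refine ⟨Cfsg.Agent.Lib.Helper19.homFun (f ^ (j + 1)) * η,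
    Cfsg.Agent.Lib.Helper82.isIrr_linear_mul hμc.1 hμc.2 hη, ?_, ?_⟩
  · intro n
    rw [Pi.mul_apply, hext]
    have h6 : Cfsg.Agent.Lib.Helper19.homFun (f ^ (j + 1)) (n : G) = 1 := by
      unfold Cfsg.Agent.Lib.Helper19.homFun
      rw [MonoidHom.pow_apply, hfN _ n.2, one_pow, Units.val_one]
    rw [h6, one_mul]
  · intro g
    have h7 := congrFun hβη g
    simp only [Pi.mul_apply] at h7
    rw [Pi.mul_apply, Pi.mul_apply, ← h7]
    have h8 := congrArg Units.val (hμ2 g)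
    have h9 := congrArg Units.val (hμk g)
    rw [Units.val_mul] at h8 h9
    rw [Units.val_one] at h9
    unfold Cfsg.Agent.Lib.Helper19.homFun
    linear_combination (-(η g) * (((f ^ (j + 1)) (g ^ k) : ℂˣ) : ℂ)) * h8
      + (η g * (((f ^ (j + 1)) g : ℂˣ) : ℂ)) * h9

end

section Sub
variable {G : Type u} [Group G] {N M : Subgroup G}

/-- `θ` regarded as a function on `N` seen as a subgroup of `M` -/
def resSub (hNM : N ≤ M) (θ : N → ℂ) : ↥(N.subgroupOf M) → ℂ :=
  θ ∘ (Subgroup.subgroupOfEquivOfLe hNM)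

theorem resSub_apply (hNM : N ≤ M) (θ : N → ℂ) (x : N.subgroupOf M) :
    resSub hNM θ x = θ ⟨((x : M) : G), Subgroup.mem_subgroupOf.mp x.2⟩ := rfl

theorem isIrr_resSub [Finite N] (hNM : N ≤ M) {θ : N → ℂ} (hθ : IsIrrCharacter N θ) :
    IsIrrCharacter (N.subgroupOf M) (resSub hNM θ) := isIrrCharacter_comp_equiv _ hθ

theorem resSub_fix (hNM : N ≤ M) {θ : N → ℂ} (k : ℕ) (hθfix : ∀ n : N, θ (n ^ k) = θ n)
    (x : N.subgroupOf M) : resSub hNM θ (x ^ k) = resSub hNM θ x := by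
  unfold resSub
  simp only [Function.comp_apply, map_pow]
  exact hθfix _

theorem resSub_inv (hN : N.Normal) (hN' : (N.subgroupOf M).Normal) (hNM : N ≤ M) {θ : N → ℂ}
    (hinv : ∀ (g : G) (n : N), θ ⟨g * n * g⁻¹, hN.conj_mem (n : G) n.2 g⟩ = θ n) (m : M)
    (x : N.subgroupOf M) :
    resSub hNM θ ⟨m * x * m⁻¹, hN'.conj_mem (x : M) x.2 m⟩ = resSub hNM θ x :=
  hinv (m : G) ⟨((x : M) : G), Subgroup.mem_subgroupOf.mp x.2⟩

theorem sub_inv_of_odd (M : Subgroup G) (k : ℕ)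
    (hk₂ : ∀ g : G, Odd (orderOf g) → g ^ k = g⁻¹) (g : M) (hg : Odd (orderOf g)) :
    g ^ k = g⁻¹ := by
  apply Subtype.ext
  rw [Subgroup.coe_pow, Subgroup.coe_inv]
  exact hk₂ g (by rw [Subgroup.orderOf_coe]; exact hg)

end Sub

/-- the case where the quotient is a `q`-group -/
theorem fixed_ext_of_pgroup (q : ℕ) [hq : Fact q.Prime] (k : ℕ) : ∀ (a : ℕ) (G : Type u)
    [Group G] [Fintype G] (N : Subgroup G) [Fintype N] (hN : N.Normal), N.index = q ^ a →
    Odd (q ^ a) → Nat.Coprime k (Nat.card G) → (∀ g : G, Odd (orderOf g) → g ^ k = g⁻¹) →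
    ∀ θ : N → ℂ, IsIrrCharacter N θ → (∀ n : N, θ (n ^ k) = θ n) →
    (∀ (g : G) (n : N), θ ⟨g * n * g⁻¹, hN.conj_mem (n : G) n.2 g⟩ = θ n) →
    ∃ χ : G → ℂ, IsIrrCharacter G χ ∧ (∀ n : N, χ n = θ n) ∧ ∀ g, χ (g ^ k) = χ g := by
  intro a
  induction a with
  | zero =>
    intro G _ _ N _ hN hidx hodd hk hk₂ θ hθ hθfix hinv
    have := hN
    have hcyc : IsCyclic (G ⧸ N) := by
      have h1 : Nat.card (G ⧸ N) = 1 := by rw [← Subgroup.index_eq_card, hidx, pow_zero]
      have : Subsingleton (G ⧸ N) := (Nat.card_eq_one_iff_unique.mp h1).1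
      exact isCyclic_of_subsingleton
    obtain ⟨η, hη, hext⟩ := Cfsg.Agent.S0886.result N hcyc θ hθ hinv
    exact fixed_ext_of_ext hN (hidx ▸ hodd) k hk hk₂ hθ hθfix hη hext
  | succ a ih =>
    intro G _ _ N _ hN hidx hodd hk hk₂ θ hθ hθfix hinv
    have := hN
    have hcardQ : Nat.card (G ⧸ N) = q ^ (a + 1) := by rw [← Subgroup.index_eq_card, hidx]
    obtain ⟨K, hK⟩ := Sylow.exists_subgroup_card_pow_prime q (n := a) (G := G ⧸ N)
      (by rw [hcardQ]; exact pow_dvd_pow q (Nat.le_succ a))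
    have hKidx : K.index = q := by
      have h1 := Subgroup.card_mul_index K
      rw [hK, hcardQ, pow_succ] at h1
      exact Nat.eq_of_mul_eq_mul_left (pow_pos hq.out.pos a) h1
    have hKn : K.Normal := Subgroup.normal_of_index_eq_minFac_card
      (by rw [hKidx, hcardQ, Nat.Prime.pow_minFac hq.out (Nat.succ_ne_zero a)])
    obtain ⟨M, hM⟩ : ∃ M : Subgroup G, M = K.comap (QuotientGroup.mk' N) := ⟨_, rfl⟩
    have hMn : M.Normal := by rw [hM]; exact hKn.comap _
    have hNM : N ≤ M := by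
      have h1 := MonoidHom.ker_le_comap (QuotientGroup.mk' N) K
      rwa [QuotientGroup.ker_mk', ← hM] at h1
    have hMidx : M.index = q := by
      rw [hM, Subgroup.index_comap_of_surjective K (QuotientGroup.mk'_surjective N), hKidx]
    have hrel : (N.subgroupOf M).index = q ^ a := by
      have h1 := Subgroup.relIndex_mul_index hNM
      rw [hMidx, hidx, pow_succ] at h1
      exact Nat.eq_of_mul_eq_mul_right hq.out.pos h1
    have hodda : Odd (q ^ a) := by
      rw [pow_succ] at hodd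
      exact (Nat.odd_mul.mp hodd).1
    have : Fintype M := Fintype.ofFinite M
    have : Fintype (N.subgroupOf M) := Fintype.ofFinite _
    have hN' : (N.subgroupOf M).Normal := Subgroup.normal_subgroupOf
    have hkM : Nat.Coprime k (Nat.card M) :=
      Nat.Coprime.coprime_dvd_right (Subgroup.card_subgroup_dvd_card M) hk
    have hk₂M := sub_inv_of_odd M k hk₂
    have hirr' := isIrr_resSub (M := M) hNM hθ
    obtain ⟨θ₁, hθ₁, hθ₁ext, hθ₁fix⟩ := ih M (N.subgroupOf M) hN' hrel hodda hkM hk₂M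
      (resSub hNM θ) hirr' (resSub_fix hNM k hθfix) (resSub_inv hN hN' hNM hinv)
    have hinv₁ : ∀ (g : G) (m : M), θ₁ ⟨g * m * g⁻¹, hMn.conj_mem (m : G) m.2 g⟩ = θ₁ m := by
      intro g
      have hirr := isIrrCharacter_cjF hMn hθ₁ g
      have hfixg : ∀ m : M, cjF hMn θ₁ g (m ^ k) = cjF hMn θ₁ g m := by
        intro m
        have h1 := congrFun (Cfsg.Agent.Lib.Helper79.cjF_pow hMn θ₁ g k) m
        have h2 : (fun n : M => θ₁ (n ^ k)) = θ₁ := funext hθ₁fix
        rw [h2] at h1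
        exact h1
      have hres : (fun x : N.subgroupOf M => cjF hMn θ₁ g x) = resSub hNM θ := by
        funext x
        rw [cjF_apply]
        have hmem : (⟨g * ((x : M) : G) * g⁻¹, hMn.conj_mem _ (x : M).2 g⟩ : M)
            ∈ N.subgroupOf M :=
          Subgroup.mem_subgroupOf.mpr (hN.conj_mem _ (Subgroup.mem_subgroupOf.mp x.2) g)
        have h1 := hθ₁ext ⟨_, hmem⟩
        rw [h1]
        exact hinv g ⟨((x : M) : G), Subgroup.mem_subgroupOf.mp x.2⟩
      have hres0 : (fun x : N.subgroupOf M => θ₁ x) = resSub hNM θ := funext hθ₁ext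
      have huniq := unique_fixed hN' (hrel ▸ hodda) k hkM hk₂M hirr' hirr hθ₁
        (by rw [hres, classInner_irr_self hirr']; exact one_ne_zero)
        (by rw [hres0, classInner_irr_self hirr']; exact one_ne_zero) hfixg hθ₁fix
      intro m
      exact congrFun huniq m
    have hcyc : IsCyclic (G ⧸ M) :=
      isCyclic_of_prime_card (p := q) (by rw [← Subgroup.index_eq_card, hMidx])
    obtain ⟨η, hη, hext⟩ := Cfsg.Agent.S0886.result M hcyc θ₁ hθ₁ hinv₁
    refine fixed_ext_of_ext hN (hidx ▸ hodd) k hk hk₂ hθ hθfix hη ?_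
    intro n
    have h1 := hext ⟨n, hNM n.2⟩
    have h2 := hθ₁ext ⟨⟨n, hNM n.2⟩, Subgroup.mem_subgroupOf.mpr n.2⟩
    exact h1.trans h2

/-- An invariant irreducible character of a normal subgroup of odd index which is fixed by the
twist has an extension which is fixed by the twist. -/
theorem fixed_ext {G : Type u} [Group G] [Fintype G] {N : Subgroup G} [Fintype N]
    (hN : N.Normal) (hidx : Odd N.index) (k : ℕ)
    (hk : Nat.Coprime k (Nat.card G)) (hk₂ : ∀ g : G, Odd (orderOf g) → g ^ k = g⁻¹)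
    {θ : N → ℂ} (hθ : IsIrrCharacter N θ) (hθfix : ∀ n : N, θ (n ^ k) = θ n)
    (hinv : ∀ (g : G) (n : N), θ ⟨g * n * g⁻¹, hN.conj_mem (n : G) n.2 g⟩ = θ n) :
    ∃ χ : G → ℂ, IsIrrCharacter G χ ∧ (∀ n : N, χ n = θ n) ∧ ∀ g, χ (g ^ k) = χ g := by
  have := hN
  have hsyl : ∀ p : ℕ, p.Prime → ∃ (P : Subgroup G) (hNP : N ≤ P) (η : P → ℂ),
      Nat.Coprime P.index p ∧ (∃ k : ℕ, N.relIndex P = p ^ k) ∧ IsIrrCharacter P η ∧
      ∀ n : N, η ⟨(n : G), hNP n.2⟩ = θ n := by
    intro p hp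
    have : Fact p.Prime := ⟨hp⟩
    obtain ⟨S⟩ : Nonempty (Sylow p (G ⧸ N)) := inferInstance
    obtain ⟨P, hP⟩ : ∃ P : Subgroup G,
      P = (S : Subgroup (G ⧸ N)).comap (QuotientGroup.mk' N) := ⟨_, rfl⟩
    have hNP : N ≤ P := by
      have h1 := MonoidHom.ker_le_comap (QuotientGroup.mk' N) (S : Subgroup (G ⧸ N))
      rwa [QuotientGroup.ker_mk', ← hP] at h1
    have hPidx : P.index = (S : Subgroup (G ⧸ N)).index := by
      rw [hP, Subgroup.index_comap_of_surjective _ (QuotientGroup.mk'_surjective N)]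
    obtain ⟨a, ha⟩ := IsPGroup.iff_card.mp S.2
    have hrel0 := Subgroup.relIndex_mul_index hNP
    have hrel : N.relIndex P = p ^ a := by
      have h1 := hrel0
      have h2 := Subgroup.card_mul_index (S : Subgroup (G ⧸ N))
      rw [hPidx, Subgroup.index_eq_card N, ← h2, ha] at h1
      exact Nat.eq_of_mul_eq_mul_right (Nat.pos_of_ne_zero Subgroup.index_ne_zero_of_finite) h1
    have hodda : Odd (p ^ a) := by
      rw [← hrel]
      exact Odd.of_dvd_nat hidx ⟨_, hrel0.symm⟩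
    have : Fintype P := Fintype.ofFinite P
    have : Fintype (N.subgroupOf P) := Fintype.ofFinite _
    have hN' : (N.subgroupOf P).Normal := Subgroup.normal_subgroupOf
    have hkP : Nat.Coprime k (Nat.card P) :=
      Nat.Coprime.coprime_dvd_right (Subgroup.card_subgroup_dvd_card P) hk
    obtain ⟨η, hη, hηext, -⟩ := fixed_ext_of_pgroup p k a P (N.subgroupOf P) hN' hrel hodda hkP
      (sub_inv_of_odd P k hk₂) (resSub hNP θ) (isIrr_resSub hNP hθ) (resSub_fix hNP k hθfix)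
      (resSub_inv hN hN' hNP hinv)
    refine ⟨P, hNP, η, ?_, ⟨a, hrel⟩, hη, ?_⟩
    · rw [hPidx]
      exact ((Nat.Prime.coprime_iff_not_dvd hp).mpr (Sylow.not_dvd_index S)).symm
    · intro n
      exact hηext ⟨⟨n, hNP n.2⟩, Subgroup.mem_subgroupOf.mpr n.2⟩
  obtain ⟨η, hη, hext⟩ := Cfsg.Agent.S0888.result N θ hθ hinv hsyl
  exact fixed_ext_of_ext hN hidx k hk hk₂ hθ hθfix hη hext

end Cfsg.Agent.Lib.Helper21.GalOdd
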