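import Mathlib
import Cfsg.Prelude.Def_Characters
import Cfsg.Prelude.Def_Blocks
import Cfsg.Agent.Lib.Helper21.RealPC
import Cfsg.Agent.Lib.Helper21.RealP.GN
import Cfsg.Agent.Lib.Helper21.RealP.RQ
import Cfsg.Agent.Lib.Helper1.Hall
import Cfsg.Agent.Lib.Helper58.RealOdd

set_option autoImplicit false

namespace Cfsg.Agent.Lib.Helper21.RealP

open Cfsg

universe u

theorem card_quot_lt {G : Type*} [Group G] [Finite G] (C : Subgroup G) (hC : C ≠ ⊥) :
    Nat.card (G ⧸ C) < Nat.card G := by
  have h1 := Subgroup.card_mul_index C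
  rw [Subgroup.index_eq_card] at h1
  have h2 := (Subgroup.one_lt_card_iff_ne_bot C).mpr hC
  have h3 : 0 < Nat.card (G ⧸ C) := Nat.card_pos
  nlinarith

/-- The endgame: `N` an abelian normal `p'`-subgroup with `P N` normal. -/
theorem endgame {G : Type*} [Group G] [Finite G] (p : ℕ) [Fact p.Prime] (P : Sylow p G)
    (hreal : RealPrime p G) (N : Subgroup G) (hN : N.Normal) [IsMulCommutative N]
    (hpN : ¬ p ∣ Nat.card N) (hPN : ((P : Subgroup G) ⊔ N).Normal)
    (hC : ∀ C : Subgroup G, C.Normal → C ≠ ⊥ → C ≤ N → ((P : Subgroup G) ⊔ C).Normal)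
    (hre : N ⊓ Subgroup.normalizer ((P : Subgroup G) : Set G) = ⊥ →
      ∃ l ∈ N, l ≠ 1 ∧ IsConj l l⁻¹) : (P : Subgroup G).Normal := by
  classical
  have := Fintype.ofFinite G
  have := hN
  have hF : Subgroup.normalizer ((P : Subgroup G) : Set G) ⊔ ((P : Subgroup G) ⊔ N) = ⊤ :=
    Sylow.normalizer_sup_eq_top' P le_sup_left
  have hHN : Subgroup.normalizer ((P : Subgroup G) : Set G) ⊔ N = ⊤ := by
    rw [← sup_assoc, sup_eq_left.mpr Subgroup.le_normalizer] at hF
    exact hF
  have hCn : (N ⊓ Subgroup.normalizer ((P : Subgroup G) : Set G)).Normal := by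
    rw [← Subgroup.normalizer_eq_top_iff, eq_top_iff, ← hHN]
    apply sup_le
    · intro h hh
      rw [Subgroup.mem_normalizer_iff]
      intro x
      constructor
      · rintro ⟨hx1, hx2⟩
        exact ⟨hN.conj_mem x hx1 h, Subgroup.mul_mem _ (Subgroup.mul_mem _ hh hx2)
          (Subgroup.inv_mem _ hh)⟩
      · rintro ⟨hx1, hx2⟩
        have e : x = h⁻¹ * (h * x * h⁻¹) * h⁻¹⁻¹ := by group
        rw [e]
        exact ⟨hN.conj_mem _ hx1 h⁻¹, Subgroup.mul_mem _ (Subgroup.mul_mem _
          (Subgroup.inv_mem _ hh) hx2) (Subgroup.inv_mem _ (Subgroup.inv_mem _ hh))⟩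
    · intro n hn
      rw [Subgroup.mem_normalizer_iff]
      intro x
      have hcomm : ∀ y ∈ N, n * y * n⁻¹ = y := by
        intro y hy
        have h1 : (⟨n, hn⟩ : N) * ⟨y, hy⟩ = ⟨y, hy⟩ * ⟨n, hn⟩ := mul_comm' _ _
        have h2 : n * y = y * n := congrArg Subtype.val h1
        rw [h2, mul_inv_cancel_right]
      constructor
      · intro hx
        rw [hcomm x hx.1]
        exact hx
      · intro hx
        have hxN : x ∈ N := by
          have e : x = n⁻¹ * (n * x * n⁻¹) * n⁻¹⁻¹ := by group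
          rw [e]
          exact hN.conj_mem _ hx.1 n⁻¹
        rw [hcomm x hxN] at hx
        exact hx
  by_cases hCb : N ⊓ Subgroup.normalizer ((P : Subgroup G) : Set G) = ⊥
  · exfalso
    obtain ⟨χ, hχr, n, hn, hne⟩ := exists_real_not_ker N
      (lift_real_of_complement N _ hHN hCb) (hre hCb)
    refine hne (ker_of_not_dvd_of_fpf p N hN hpN (P : Subgroup G) P.2 ?_ χ (hreal χ hχr) n hn)
    intro x hx hfix
    have h1 : x ∈ N ⊓ Subgroup.normalizer ((P : Subgroup G) : Set G) := by
      refine Subgroup.mem_inf.mpr ⟨hx, ?_⟩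
      rw [Subgroup.mem_normalizer_iff]
      have hc : ∀ r ∈ (P : Subgroup G), x * r * x⁻¹ = r := by
        intro r hr
        have h2 := hfix r hr
        calc x * r * x⁻¹ = (r * x * r⁻¹) * r * x⁻¹ := by rw [h2]
          _ = r := by group
      intro h
      constructor
      · intro hh
        rw [hc h hh]; exact hh
      · intro hh
        have h3 := hc _ hh
        have h4 : x * h * x⁻¹ = h := mul_left_cancel (mul_right_cancel h3)
        rw [h4] at hh; exact hh
    rw [hCb, Subgroup.mem_bot] at h1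
    exact h1
  · have := hC _ hCn hCb inf_le_left
    have hF' : Subgroup.normalizer ((P : Subgroup G) : Set G)
        ⊔ ((P : Subgroup G) ⊔ (N ⊓ Subgroup.normalizer ((P : Subgroup G) : Set G))) = ⊤ :=
      Sylow.normalizer_sup_eq_top' P le_sup_left
    rw [sup_eq_left.mpr (sup_le Subgroup.le_normalizer inf_le_right)] at hF'
    exact Subgroup.normalizer_eq_top_iff.mp hF'

/-- passing to a quotient: normality of the image of `P` gives normality of `P C` -/
theorem sup_normal_of_map_normal {G : Type*} [Group G] (P C : Subgroup G) [C.Normal]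
    (h : (P.map (QuotientGroup.mk' C)).Normal) : (P ⊔ C).Normal := by
  have h3 : (P.map (QuotientGroup.mk' C)).comap (QuotientGroup.mk' C) = P ⊔ C := by
    rw [Subgroup.comap_map_eq, QuotientGroup.ker_mk']
  rw [← h3]
  exact h.comap _

theorem not_dvd_card_of_isPGroup {G : Type*} [Group G] [Finite G] {p q : ℕ} (hp : p.Prime)
    (hq : q.Prime) (hne : q ≠ p) (h : IsPGroup q G) : ¬ p ∣ Nat.card G := by
  have : Fact q.Prime := ⟨hq⟩
  obtain ⟨k, hk⟩ := IsPGroup.iff_card.mp h
  rw [hk]
  intro hd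
  exact hne ((Nat.prime_dvd_prime_iff_eq hp hq).mp (hp.dvd_of_dvd_pow hd)).symm

/-- Groups generated by their `2`-elements. -/
theorem core_A (p : ℕ) [Fact p.Prime] : ∀ (n : ℕ) (G : Type u) [Group G] [Finite G],
    Nat.card G = n → gen 2 G = ⊤ → Group.IsSolvable ↥(gen p G) → RealPrime p G →
    ∀ P : Sylow p G, (P : Subgroup G).Normal := by
  intro n
  induction n using Nat.strong_induction_on with
  | _ n ih =>
  intro G _ _ hcard h2 hs hreal P
  have hOn := gen_normal p G
  by_cases hO : gen p G = ⊥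
  · have h1 : (P : Subgroup G) = ⊥ := le_bot_iff.mp (hO ▸ sylow_le_gen p P)
    rw [h1]; infer_instance
  obtain ⟨N, hNO, hNn, hNb, hNc, q, hq, hNq⟩ :=
    Cfsg.Agent.Lib.Helper1.exists_normal_abelian_pgroup_le (gen p G) hO hs
  have hquot : ∀ C : Subgroup G, C.Normal → C ≠ ⊥ → ((P : Subgroup G) ⊔ C).Normal := by
    intro C hCn hCb
    have h2' : gen 2 (G ⧸ C) = ⊤ := by
      rw [eq_top_iff, ← Subgroup.map_top_of_surjective (QuotientGroup.mk' C)
        (QuotientGroup.mk'_surjective C), ← h2]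
      exact map_gen_le 2 C
    have h3 := ih _ (hcard ▸ card_quot_lt C hCb) (G ⧸ C) rfl h2' (solvable_gen_quot p C hs)
      (realPrime_quot p C hreal) (P.mapSurjective (QuotientGroup.mk'_surjective C))
    rw [Sylow.coe_mapSurjective] at h3
    exact sup_normal_of_map_normal _ C h3
  by_cases hqp : q = p
  · subst hqp
    have hle := Cfsg.Agent.Lib.Helper58.normal_pgroup_le_sylow N hNq P
    have h4 := hquot N hNn hNb
    rwa [sup_eq_left.mpr hle] at h4
  · apply endgame p P hreal N hNn (not_dvd_card_of_isPGroup Fact.out hq hqp hNq)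
      (hquot N hNn hNb) (fun C hCn hCb _ => hquot C hCn hCb)
    intro hCbot
    apply exists_real_of_not_centralize N hNn
    intro hcen
    apply hNb
    rw [eq_bot_iff, ← hCbot]
    refine le_inf le_rfl ?_
    intro x hx
    rw [Subgroup.mem_normalizer_iff]
    intro h
    have h5 : h ∈ Subgroup.centralizer (N : Set G) := hcen (h2 ▸ Subgroup.mem_top h)
    have h6 := Subgroup.mem_centralizer_iff.mp h5 x hx
    rw [h6, mul_inv_cancel_right]

end Cfsg.Agent.Lib.Helper21.RealP
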