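import Mathlib
import Cfsg.Prelude.Def_Characters
import Cfsg.Prelude.Def_Blocks
import Cfsg.Agent.Lib.Helper21.RealPD

set_option autoImplicit false

namespace Cfsg.Agent.Lib.Helper21.RealP

open Cfsg

universe u

/-- if `K` centralizes the normal `q`-subgroup `N ≤ K` (`q` odd), `K ∩ P = 1` and `P N` is normal,
then every `2`-element commutes with `P` -/
theorem two_elt_commute {G : Type*} [Group G] [Finite G] (K P N : Subgroup G) (hK : K.Normal)
    (hN : N.Normal) (hNK : N ≤ K) (hKP : K ⊓ P = ⊥) (hPN : (P ⊔ N).Normal)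
    (hcen : K ≤ Subgroup.centralizer (N : Set G)) (hodd : Odd (Nat.card N))
    (t : G) (htK : t ∈ K) (j : ℕ) (ht : orderOf t = 2 ^ j) (r : G) (hr : r ∈ P) :
    r * t * r⁻¹ = t := by
  have hc1 : r * t * r⁻¹ * t⁻¹ ∈ K := K.mul_mem (hK.conj_mem t htK r) (K.inv_mem htK)
  have hrPN : r ∈ P ⊔ N := (le_sup_left : P ≤ P ⊔ N) hr
  have hc2 : r * t * r⁻¹ * t⁻¹ ∈ P ⊔ N := by
    have e : r * t * r⁻¹ * t⁻¹ = r * (t * r⁻¹ * t⁻¹) := by group
    rw [e]
    exact (P ⊔ N).mul_mem hrPN (hPN.conj_mem _ ((P ⊔ N).inv_mem hrPN) t)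
  have hc3 : r * t * r⁻¹ * t⁻¹ ∈ N := by
    have h1 := hc2
    rw [← SetLike.mem_coe, Subgroup.mul_normal] at h1
    obtain ⟨r₁, hr₁, n₁, hn₁, he⟩ := Set.mem_mul.mp h1
    have h2 : r₁ ∈ K ⊓ P := by
      refine ⟨?_, hr₁⟩
      have e : r₁ = (r * t * r⁻¹ * t⁻¹) * n₁⁻¹ := by rw [← he]; group
      rw [e]
      exact K.mul_mem hc1 (K.inv_mem (hNK hn₁))
    rw [hKP, Subgroup.mem_bot] at h2
    rw [← he, h2, one_mul]
    exact hn₁
  set c := r * t * r⁻¹ * t⁻¹ with hc
  have hcomm : Commute c t := Subgroup.mem_centralizer_iff.mp (hcen htK) c hc3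
  have h3 : r * t * r⁻¹ = c * t := by rw [hc]; group
  have h4 : c ^ 2 ^ j = 1 := by
    have h5 : (c * t) ^ 2 ^ j = 1 := by
      rw [← h3, conj_pow, ← ht, pow_orderOf_eq_one]; group
    rw [hcomm.mul_pow, ← ht, pow_orderOf_eq_one, mul_one, ht] at h5
    exact h5
  have h6 : orderOf c ∣ 2 ^ j := orderOf_dvd_of_pow_eq_one h4
  have h7 : orderOf c ∣ Nat.card N := by
    have := orderOf_dvd_natCard (⟨c, hc3⟩ : N)
    rwa [Subgroup.orderOf_mk] at this
  have h8 : Nat.Coprime (2 ^ j) (Nat.card N) := (Nat.coprime_two_left.mpr hodd).pow_left j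
  have h9 : c = 1 := orderOf_eq_one_iff.mp (Nat.eq_one_of_dvd_coprimes h8 h6 h7)
  rw [h3, h9, one_mul]

/-- Groups in which the subgroup generated by the `2`-elements has `p`-power index. -/
theorem core_B (p : ℕ) [Fact p.Prime] : ∀ (n : ℕ) (G : Type u) [Group G] [Finite G],
    Nat.card G = n → (∃ a : ℕ, (gen 2 G).index = p ^ a) → Group.IsSolvable ↥(gen p G) →
    RealPrime p G → ∀ P : Sylow p G, (P : Subgroup G).Normal := by
  intro n
  induction n using Nat.strong_induction_on with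
  | _ n ih =>
  intro G _ _ hcard hidx hs hreal P
  have hp : p.Prime := Fact.out
  have hKn := gen_normal 2 G
  have hOn := gen_normal p G
  have hquot : ∀ C : Subgroup G, C.Normal → C ≠ ⊥ → ((P : Subgroup G) ⊔ C).Normal := by
    intro C hCn hCb
    have hidx' : ∃ b : ℕ, (gen 2 (G ⧸ C)).index = p ^ b := by
      obtain ⟨a, ha⟩ := hidx
      have h1 : (gen 2 (G ⧸ C)).index ∣ ((gen 2 G).map (QuotientGroup.mk' C)).index :=
        Subgroup.index_dvd_of_le (map_gen_le 2 C)
      have h2 : ((gen 2 G).map (QuotientGroup.mk' C)).index ∣ (gen 2 G).index :=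
        Subgroup.index_map_dvd _ (QuotientGroup.mk'_surjective C)
      obtain ⟨b, -, hb⟩ := (Nat.dvd_prime_pow hp).mp (ha ▸ h1.trans h2)
      exact ⟨b, hb⟩
    have h3 := ih _ (hcard ▸ card_quot_lt C hCb) (G ⧸ C) rfl hidx' (solvable_gen_quot p C hs)
      (realPrime_quot p C hreal) (P.mapSurjective (QuotientGroup.mk'_surjective C))
    rw [Sylow.coe_mapSurjective] at h3
    exact sup_normal_of_map_normal _ C h3
  obtain ⟨Q'⟩ : Nonempty (Sylow p ↥(gen 2 G)) := inferInstance
  have hQ'n : (Q' : Subgroup ↥(gen 2 G)).Normal :=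
    core_A p _ ↥(gen 2 G) rfl (gen_gen_top 2 G) (solvable_gen_sub p (gen 2 G) hs)
      (realPrime_sub p (gen 2 G) (odd_index_gen_two G) hreal) Q'
  have hQ'c : (Q' : Subgroup ↥(gen 2 G)).Characteristic := Sylow.characteristic_of_normal Q' hQ'n
  have hQn : ((Q' : Subgroup ↥(gen 2 G)).map (gen 2 G).subtype).Normal :=
    ConjAct.normal_of_characteristic_of_normal
  have hQp : IsPGroup p ↥((Q' : Subgroup ↥(gen 2 G)).map (gen 2 G).subtype) := Q'.2.map _
  by_cases hQb : (Q' : Subgroup ↥(gen 2 G)).map (gen 2 G).subtype = ⊥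
  swap
  · have hle := Cfsg.Agent.Lib.Helper58.normal_pgroup_le_sylow _ hQp P
    have h4 := hquot _ hQn hQb
    rwa [sup_eq_left.mpr hle] at h4
  have hpK : ¬ p ∣ Nat.card ↥(gen 2 G) := by
    intro hd
    apply Sylow.ne_bot_of_dvd_card Q' hd
    exact (Subgroup.map_eq_bot_iff_of_injective _ (Subgroup.subtype_injective _)).mp hQb
  have hKP : gen 2 G ⊓ (P : Subgroup G) = ⊥ := by
    obtain ⟨k, hk⟩ := IsPGroup.iff_card.mp P.2
    apply (Subgroup.disjoint_of_coprime_natCard _).eq_bot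
    rw [hk]
    exact ((Nat.Prime.coprime_iff_not_dvd hp).mpr hpK).symm.pow_right k
  by_cases hK0 : gen 2 G ⊓ gen p G = ⊥
  · have hcen : gen 2 G ≤ Subgroup.normalizer ((P : Subgroup G) : Set G) := by
      refine le_trans ?_ (Subgroup.centralizer_le_normalizer _)
      intro k hk
      rw [Subgroup.mem_centralizer_iff]
      intro r hr
      exact (Subgroup.commute_of_normal_of_disjoint _ _ hKn hOn (disjoint_iff.mpr hK0) k r hk
        (sylow_le_gen p P hr)).symm
    have hsup : gen 2 G ⊔ (P : Subgroup G) = ⊤ := by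
      rw [← Subgroup.index_eq_one]
      obtain ⟨a, ha⟩ := hidx
      have h1 : (gen 2 G ⊔ (P : Subgroup G)).index ∣ p ^ a :=
        ha ▸ Subgroup.index_dvd_of_le le_sup_left
      have h2 : (gen 2 G ⊔ (P : Subgroup G)).index ∣ (P : Subgroup G).index :=
        Subgroup.index_dvd_of_le le_sup_right
      have h3 : Nat.Coprime (p ^ a) (P : Subgroup G).index :=
        ((Nat.Prime.coprime_iff_not_dvd hp).mpr (Sylow.not_dvd_index P)).pow_left a
      exact Nat.eq_one_of_dvd_coprimes h3 h1 h2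
    rw [← Subgroup.normalizer_eq_top_iff, eq_top_iff, ← hsup]
    exact sup_le hcen Subgroup.le_normalizer
  · have hs' : Group.IsSolvable ↥(gen 2 G ⊓ gen p G) :=
      Group.isSolvable_of_isSolvable_injective
        (f := Subgroup.inclusion (inf_le_right : gen 2 G ⊓ gen p G ≤ gen p G))
        (Subgroup.inclusion_injective _)
    obtain ⟨N, hNle, hNn, hNb, hNc, q, hq, hNq⟩ :=
      Cfsg.Agent.Lib.Helper1.exists_normal_abelian_pgroup_le (gen 2 G ⊓ gen p G) hK0 hs'
    have hNK : N ≤ gen 2 G := hNle.trans inf_le_left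
    have hpN : ¬ p ∣ Nat.card N := fun h => hpK (h.trans (Subgroup.card_dvd_of_le hNK))
    have : Fact q.Prime := ⟨hq⟩
    obtain ⟨k, hk⟩ := IsPGroup.iff_card.mp hNq
    apply endgame p P hreal N hNn hpN (hquot N hNn hNb) (fun C hCn hCb _ => hquot C hCn hCb)
    intro hCbot
    by_cases hq2 : q = 2
    · subst hq2
      have hk0 : k ≠ 0 := by
        rintro rfl
        rw [pow_zero] at hk
        exact hNb (Subgroup.card_eq_one.mp hk)
      obtain ⟨x, hx⟩ := exists_prime_orderOf_dvd_card' (G := N) 2 (hk ▸ dvd_pow_self 2 hk0)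
      refine ⟨x, x.2, ?_, ?_⟩
      · intro h1
        have h2 : x = 1 := Subtype.ext h1
        rw [h2, orderOf_one] at hx
        omega
      · have h3 : (x : G) ^ 2 = 1 := by
          rw [← Subgroup.coe_pow, ← hx, pow_orderOf_eq_one]; rfl
        have h4 : (x : G)⁻¹ = x := by
          rw [inv_eq_iff_mul_eq_one, ← pow_two]; exact h3
        rw [h4]
    · apply exists_real_of_not_centralize N hNn
      intro hcen
      have hodd : Odd (Nat.card N) := by
        rw [hk]; exact (hq.odd_of_ne_two hq2).pow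
      have hcenP : gen 2 G ≤ Subgroup.centralizer ((P : Subgroup G) : Set G) := by
        conv_lhs => unfold gen
        rw [Subgroup.closure_le]
        rintro t ⟨j, hj⟩
        rw [SetLike.mem_coe, Subgroup.mem_centralizer_iff]
        intro r hr
        have h1 := two_elt_commute (gen 2 G) (P : Subgroup G) N hKn hNn hNK hKP
          (hquot N hNn hNb) hcen hodd t (Subgroup.subset_closure ⟨j, hj⟩) j hj r hr
        calc r * t = (r * t * r⁻¹) * r := by group
          _ = t * r := by rw [h1]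
      apply hNb
      rw [eq_bot_iff, ← hCbot]
      exact le_inf le_rfl ((hNK.trans hcenP).trans (Subgroup.centralizer_le_normalizer _))

end Cfsg.Agent.Lib.Helper21.RealP
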