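import Mathlib
import Cfsg.Agent.Lib.Helper21.RealPE
import Cfsg.Agent.Lib.Helper77.GlaubReal
import Cfsg.Agent.S4866

/-!
# Real classes meet the Sylow normalizer (coprime core)
-/

set_option autoImplicit false

namespace Cfsg.Agent.Lib.Helper21.RealP

open Cfsg Cfsg.Agent.Lib.Helper20 Cfsg.Agent.Lib.Helper5 Cfsg.Agent.Lib.Helper77

/-- every real irreducible character of `K` has a `G`-conjugate invariant under the `p`-group
`R` -/
theorem exists_inv_conj {G : Type*} [Group G] [Finite G] (p : ℕ) [Fact p.Prime] (K : Subgroup G)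
    [hK : K.Normal] (hodd : Odd K.index) (hreal : RealPrime p G) (R : Subgroup G)
    (hR : IsPGroup p R) (θ : IrrCharacter K) (hθ : ∀ k : K, ((θ : K → ℂ) k).im = 0) :
    ∃ g : G, ∀ r ∈ R, cjF hK (cjF hK (θ : K → ℂ) g) r = cjF hK (θ : K → ℂ) g := by
  classical
  have := Fintype.ofFinite G
  obtain ⟨χ, hχr, hχc⟩ := Cfsg.Agent.Lib.Helper83.exists_real_over K hodd θ.2 hθ
  have hidx : ¬ p ∣ (inertia hK (θ : K → ℂ)).index :=
    fun h => hreal χ hχr (h.trans (index_inertia_dvd hK θ.2 χ.2 hχc))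
  obtain ⟨g, hg⟩ := exists_conj_le_of_not_dvd_index p R hR _ hidx
  refine ⟨g⁻¹, fun r hr => ?_⟩
  have h1 := (mem_inertia hK (θ : K → ℂ) _).mp (hg r hr)
  have h2 := congrArg (fun ψ => cjF hK ψ g⁻¹) h1
  simp only [cjF_cjF] at h2
  rw [cjF_cjF, ← h2]
  congr 1
  group

/-- the orbit relation on real characters of a subgroup -/
def relCh {G : Type*} [Group G] (K : Subgroup G) :
    {θ : IrrCharacter K // ∀ k : K, ((θ : K → ℂ) k).im = 0} →
    {θ : IrrCharacter K // ∀ k : K, ((θ : K → ℂ) k).im = 0} → Prop :=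
  fun θ η => ∃ g : G, ∀ k k' : K, (k' : G) = g * (k : G) * g⁻¹ →
    (η.1 : K → ℂ) k' = (θ.1 : K → ℂ) k

/-- the orbit relation on real elements of a subgroup -/
def relCl {G : Type*} [Group G] (K : Subgroup G) :
    {x : K // IsConj x x⁻¹} → {x : K // IsConj x x⁻¹} → Prop :=
  fun x y => ∃ g : G, (y.1 : G) = g * x.1 * g⁻¹

theorem card_relCh_eq {G : Type*} [Group G] [Finite G] (K : Subgroup G) [K.Normal]
    (hodd : Odd K.index) : Nat.card (Quot (relCh K)) = Nat.card (Quot (relCl K)) :=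
  Cfsg.Agent.S4866.result K hodd

theorem relCl_equivalence {G : Type*} [Group G] (K : Subgroup G) : Equivalence (relCl K) where
  refl x := ⟨1, by simp⟩
  symm := by
    rintro x y ⟨g, hg⟩
    exact ⟨g⁻¹, by rw [hg]; group⟩
  trans := by
    rintro x y z ⟨g, hg⟩ ⟨h, hh⟩
    exact ⟨h * g, by rw [hh, hg]; group⟩

theorem relCl_of_mk_eq {G : Type*} [Group G] (K : Subgroup G) {x y : {x : K // IsConj x x⁻¹}}
    (h : Quot.mk (relCl K) x = Quot.mk (relCl K) y) : relCl K x y :=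
  (relCl_equivalence K).eqvGen_iff.mp (Quot.eqvGen_exact h)


/-- the number of `G`-orbits of real characters of `K` is at most the number of `N_G(P)`-orbits
of real characters of `C_K(P)` (Glauberman correspondence) -/
theorem card_relCh_le {G : Type*} [Group G] [Finite G] (p : ℕ) [Fact p.Prime] (K : Subgroup G)
    [hK : K.Normal] (hodd : Odd K.index) (hpK : ¬ p ∣ Nat.card K) (hreal : RealPrime p G)
    (P : Sylow p G) (N C : Subgroup G) (hN : N = Subgroup.normalizer ((P : Subgroup G) : Set G))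
    (hC : C = K ⊓ Subgroup.centralizer ((P : Subgroup G) : Set G)) (hCN : C ≤ N) :
    Nat.card (Quot (relCh K)) ≤ Nat.card (Quot (relCh (C.subgroupOf N))) := by
  classical
  have hp : p.Prime := Fact.out
  have := Fintype.ofFinite C
  have hCK : C ≤ K := hC ▸ inf_le_left
  have hcop : (Nat.card K).Coprime (Nat.card (P : Subgroup G)) := by
    obtain ⟨k, hk⟩ := IsPGroup.iff_card.mp P.2
    rw [hk]
    exact ((Nat.Prime.coprime_iff_not_dvd hp).mpr hpK).symm.pow_right k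
  have hKtop : Subgroup.normalizer (K : Set G) = ⊤ := Subgroup.normalizer_eq_top K
  have hGl : Glaub p K (P : Subgroup G) C hCK :=
    glaub_pgroup p _ K P le_rfl P.2 (by rw [hKtop]; exact le_top) hcop C hC hCK
  have hnK : ∀ n : G, n ∈ Subgroup.normalizer (K : Set G) := fun n => by rw [hKtop]; trivial
  have hnP : ∀ n ∈ N, ∀ t ∈ (P : Subgroup G), n * t * n⁻¹ ∈ (P : Subgroup G) := by
    intro n hn t ht
    rw [hN] at hn
    exact (Subgroup.mem_normalizer_iff.mp hn t).mp ht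
  have hnP' : ∀ n ∈ N, ∀ t ∈ (P : Subgroup G), n⁻¹ * t * n ∈ (P : Subgroup G) := by
    intro n hn t ht
    have := hnP n⁻¹ (N.inv_mem hn) t ht
    rwa [inv_inv] at this
  have hnC0 : ∀ n ∈ N, ∀ c ∈ C, n * c * n⁻¹ ∈ C := by
    intro n hn c hc
    rw [hC] at hc ⊢
    exact conj_mem_inf_centralizer (fun g hg => hK.conj_mem g hg n) (hnP' n hn) hc
  have hnC : ∀ n ∈ N, n ∈ Subgroup.normalizer (C : Set G) := by
    intro n hn
    rw [Subgroup.mem_normalizer_iff]
    intro c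
    refine ⟨hnC0 n hn c, fun h => ?_⟩
    have := hnC0 n⁻¹ (N.inv_mem hn) _ h
    have e : n⁻¹ * (n * c * n⁻¹) * n⁻¹⁻¹ = c := by group
    rwa [e] at this
  let e : ↥(C.subgroupOf N) ≃* ↥C := Subgroup.subgroupOfEquivOfLe hCN
  have hex : ∀ β' : {β : IrrCharacter ↥(C.subgroupOf N) //
      ∀ k, ((β : ↥(C.subgroupOf N) → ℂ) k).im = 0}, ∃ χ : IrrCharacter K,
      (∀ s ∈ (P : Subgroup G), InvUnder K s (χ : K → ℂ)) ∧
      PCorr p hCK (χ : K → ℂ) ((irrEquiv e).symm β'.1) := fun β' => hGl.surj _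
  choose F hF1 hF2 using hex
  have hFreal : ∀ β', ∀ k : K, ((F β' : K → ℂ) k).im = 0 := by
    intro β'
    rw [← cbar_eq_iff]
    have h1 := (hF2 β').cbar
    have h2 : cbar ((irrEquiv e).symm β'.1) = (irrEquiv e).symm β'.1 :=
      (cbar_eq_iff _).2 (fun c => β'.2 (e.symm c))
    rw [h2] at h1
    exact hGl.inj _ _ (fun s hs => invUnder_cbar (hF1 β' s hs)) (hF1 β') _ h1 (hF2 β')
  let Ψ : Quot (relCh (C.subgroupOf N)) → Quot (relCh K) :=
    Quot.lift (fun β' => Quot.mk _ ⟨F β', hFreal β'⟩) (by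
      rintro β' γ' ⟨n, hn⟩
      apply Quot.sound
      refine ⟨(n : G), ?_⟩
      let χ' : IrrCharacter K := ⟨(F γ' : K → ℂ) ∘ cjAut K n (hnK n),
        isIrrCharacter_comp_equiv _ (F γ').2⟩
      have hχ'T : ∀ t ∈ (P : Subgroup G), InvUnder K t (χ' : K → ℂ) := by
        intro t ht g g' hg
        show (F γ' : K → ℂ) (cjAut K n (hnK n) g') = (F γ' : K → ℂ) (cjAut K n (hnK n) g)
        apply hF1 γ' ((n : G) * t * (n : G)⁻¹) (hnP n n.2 t ht)
        rw [cjAut_coe, cjAut_coe, hg]; group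
      have hfun : (((irrEquiv e).symm γ'.1 : IrrCharacter C) : C → ℂ) ∘ cjAut C n (hnC n n.2)
          = (((irrEquiv e).symm β'.1 : IrrCharacter C) : C → ℂ) := by
        funext c
        show (γ'.1 : ↥(C.subgroupOf N) → ℂ) (e.symm (cjAut C n (hnC n n.2) c))
          = (β'.1 : ↥(C.subgroupOf N) → ℂ) (e.symm c)
        apply hn
        apply Subtype.ext
        rfl
      have hc' : PCorr p hCK (χ' : K → ℂ) ((irrEquiv e).symm β'.1) := by
        obtain ⟨m, hm, hpm⟩ := hF2 γ'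
        refine ⟨m, ?_, hpm⟩
        have e1 := inner_cj hCK n (hnK n) (hnC n n.2) (F γ' : K → ℂ)
          (((irrEquiv e).symm γ'.1 : IrrCharacter C) : C → ℂ)
        rw [hfun] at e1
        exact e1.trans hm
      have heq : χ' = F β' := hGl.inj χ' (F β') hχ'T (hF1 β') _ hc' (hF2 β')
      intro k k' hk
      show (F γ' : K → ℂ) k' = (F β' : K → ℂ) k
      rw [← heq]
      show (F γ' : K → ℂ) k' = (F γ' : K → ℂ) (cjAut K n (hnK n) k)
      have hkk : k' = cjAut K n (hnK n) k := by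
        apply Subtype.ext
        rw [hk, cjAut_coe]
      rw [hkk])
  have hsurj : Function.Surjective Ψ := by
    intro a
    obtain ⟨θ, rfl⟩ := Quot.exists_rep a
    obtain ⟨g, hg⟩ := exists_inv_conj p K hodd hreal P P.2 θ.1 θ.2
    let θ' : IrrCharacter K := ⟨cjF hK (θ.1 : K → ℂ) g, isIrrCharacter_cjF hK θ.1.2 g⟩
    have hinv : ∀ s ∈ (P : Subgroup G), InvUnder K s (θ' : K → ℂ) := by
      intro s hs k k' hk
      have h1 := congrFun (hg s hs) k
      rw [cjF_apply] at h1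
      show cjF hK (θ.1 : K → ℂ) g k' = cjF hK (θ.1 : K → ℂ) g k
      rw [← h1]
      congr 1
      exact Subtype.ext hk
    have hθ'real : cbar θ' = θ' := (cbar_eq_iff θ').2 (fun k => θ.2 _)
    obtain ⟨β, hβ⟩ := hGl.exists_pcorr θ' hinv
    have hβreal : ∀ c : C, ((β : C → ℂ) c).im = 0 := by
      rw [← cbar_eq_iff]
      have h1 := hβ.cbar
      rw [hθ'real] at h1
      exact hGl.pcorr_unique θ' hinv h1 hβ
    let β' : {β : IrrCharacter ↥(C.subgroupOf N) //
      ∀ k, ((β : ↥(C.subgroupOf N) → ℂ) k).im = 0} := ⟨irrEquiv e β, fun d => hβreal (e d)⟩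
    refine ⟨Quot.mk _ β', ?_⟩
    show Quot.mk _ (⟨F β', hFreal β'⟩ : {θ : IrrCharacter K // ∀ k : K, ((θ : K → ℂ) k).im = 0})
      = Quot.mk _ θ
    have h2 : (irrEquiv e).symm β'.1 = β := (irrEquiv e).symm_apply_apply β
    have h3 : F β' = θ' := hGl.inj _ _ (hF1 β') hinv β (h2 ▸ hF2 β') hβ
    apply Quot.sound
    refine ⟨g, ?_⟩
    intro k k' hk
    show (θ.1 : K → ℂ) k' = (F β' : K → ℂ) k
    rw [h3]
    show (θ.1 : K → ℂ) k' = cjF hK (θ.1 : K → ℂ) g k
    rw [cjF_apply]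
    have hkk : k' = ⟨g * (k : G) * g⁻¹, hK.conj_mem k k.2 g⟩ := Subtype.ext hk
    rw [hkk]
  exact Nat.card_le_card_of_surjective Ψ hsurj


/-- coprime core: if `K` is a normal `p'`-subgroup of odd index and all real irreducible characters
of `G` have `p'`-degree then every real element of `K` is conjugate into `C_K(P)`. -/
theorem core_C {G : Type*} [Group G] [Finite G] (p : ℕ) [Fact p.Prime] (K : Subgroup G)
    [hK : K.Normal] (hodd : Odd K.index) (hpK : ¬ p ∣ Nat.card K) (hreal : RealPrime p G)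
    (P : Sylow p G) (x : K) (hx : IsConj x x⁻¹) :
    ∃ g : G, g * (x : G) * g⁻¹ ∈ Subgroup.centralizer ((P : Subgroup G) : Set G) := by
  classical
  have hp : p.Prime := Fact.out
  obtain ⟨N, hN⟩ : ∃ N : Subgroup G, N = Subgroup.normalizer ((P : Subgroup G) : Set G) :=
    ⟨_, rfl⟩
  obtain ⟨C, hC⟩ : ∃ C : Subgroup G, C = K ⊓ Subgroup.centralizer ((P : Subgroup G) : Set G) :=
    ⟨_, rfl⟩
  have hCK : C ≤ K := hC ▸ inf_le_left
  have hCcen : C ≤ Subgroup.centralizer ((P : Subgroup G) : Set G) := hC ▸ inf_le_right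
  have hCN : C ≤ N := hN ▸ hCcen.trans (Subgroup.centralizer_le_normalizer _)
  have hKP : K ⊓ (P : Subgroup G) = ⊥ := by
    obtain ⟨k, hk⟩ := IsPGroup.iff_card.mp P.2
    apply (Subgroup.disjoint_of_coprime_natCard _).eq_bot
    rw [hk]
    exact ((Nat.Prime.coprime_iff_not_dvd hp).mpr hpK).symm.pow_right k
  have hKN : K ⊓ N = C := by
    apply le_antisymm
    · intro y hy
      obtain ⟨hyK, hyN⟩ := Subgroup.mem_inf.mp hy
      rw [hC]
      refine Subgroup.mem_inf.mpr ⟨hyK, ?_⟩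
      rw [Subgroup.mem_centralizer_iff]
      intro u hu
      have hyN' : y ∈ Subgroup.normalizer ((P : Subgroup G) : Set G) := hN ▸ hyN
      have h1 : y * u * y⁻¹ ∈ (P : Subgroup G) := (Subgroup.mem_normalizer_iff.mp hyN' u).mp hu
      have h2 : y * u * y⁻¹ * u⁻¹ ∈ K ⊓ (P : Subgroup G) := by
        refine Subgroup.mem_inf.mpr
          ⟨?_, (P : Subgroup G).mul_mem h1 ((P : Subgroup G).inv_mem hu)⟩
        have h3 : y * u * y⁻¹ * u⁻¹ = y * (u * y⁻¹ * u⁻¹) := by group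
        rw [h3]
        exact K.mul_mem hyK (hK.conj_mem _ (K.inv_mem hyK) u)
      rw [hKP, Subgroup.mem_bot] at h2
      calc u * y = (y * u * y⁻¹ * u⁻¹)⁻¹ * (y * u) := by group
        _ = y * u := by rw [h2, inv_one, one_mul]
    · exact le_inf hCK hCN
  have hDn : (C.subgroupOf N).Normal := by
    rw [← hKN, Subgroup.inf_subgroupOf_right]
    infer_instance
  have hDodd : Odd (C.subgroupOf N).index := by
    have h1 : (C.subgroupOf N).index = K.relIndex N := by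
      rw [← hKN, Subgroup.inf_subgroupOf_right]
      rfl
    rw [h1]
    exact Odd.of_dvd_nat hodd (Subgroup.relIndex_dvd_index_of_normal K N)
  have hcard : Nat.card (Quot (relCl K)) ≤ Nat.card (Quot (relCl (C.subgroupOf N))) := by
    rw [← card_relCh_eq K hodd, ← card_relCh_eq (C.subgroupOf N) hDodd]
    exact card_relCh_le p K hodd hpK hreal P N C hN hC hCN
  let ι : ↥(C.subgroupOf N) →* ↥K :=
    (Subgroup.inclusion hCK).comp (Subgroup.subgroupOfEquivOfLe hCN).toMonoidHom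
  have hι : ∀ d, ((ι d : K) : G) = ((d : N) : G) := fun d => rfl
  let ι' : {x : ↥(C.subgroupOf N) // IsConj x x⁻¹} → {x : K // IsConj x x⁻¹} :=
    fun d => ⟨ι d.1, by have := isConj_map ι d.2; rwa [map_inv] at this⟩
  let Φ : Quot (relCl (C.subgroupOf N)) → Quot (relCl K) :=
    Quot.map ι' (by
      rintro a b ⟨n, hn⟩
      refine ⟨(n : G), ?_⟩
      show ((ι b.1 : K) : G) = (n : G) * ((ι a.1 : K) : G) * (n : G)⁻¹
      rw [hι, hι, hn]
      rfl)
  have hmemC : ∀ d : ↥(C.subgroupOf N), ((d : N) : G) ∈ C := fun d => d.2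
  have hΦ : Function.Injective Φ := by
    intro a b hab
    obtain ⟨a, rfl⟩ := Quot.exists_rep a
    obtain ⟨b, rfl⟩ := Quot.exists_rep b
    obtain ⟨g, hg⟩ := relCl_of_mk_eq K hab
    have hg' : ((b.1 : N) : G) = g * ((a.1 : N) : G) * g⁻¹ := hg
    obtain ⟨n, hn, hn'⟩ := Sylow.conj_eq_normalizer_conj_of_mem_centralizer P ((a.1 : N) : G) g⁻¹
      (hCcen (hmemC a.1)) (by rw [inv_inv, ← hg']; exact hCcen (hmemC b.1))
    apply Quot.sound
    refine ⟨⟨n⁻¹, N.inv_mem (hN ▸ hn)⟩, ?_⟩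
    apply Subtype.ext
    show ((b.1 : N) : G) = n⁻¹ * ((a.1 : N) : G) * n⁻¹⁻¹
    rw [hg', inv_inv, ← hn', inv_inv]
  have hbij := hΦ.bijective_of_nat_card_le hcard
  obtain ⟨b, hb⟩ := hbij.2 (Quot.mk _ ⟨x, hx⟩)
  obtain ⟨d, rfl⟩ := Quot.exists_rep b
  obtain ⟨g, hg⟩ := relCl_of_mk_eq K hb
  have hg' : (x : G) = g * ((d.1 : N) : G) * g⁻¹ := hg
  refine ⟨g⁻¹, ?_⟩
  have h1 : g⁻¹ * (x : G) * g⁻¹⁻¹ = ((d.1 : N) : G) := by rw [hg']; group
  rw [h1]
  exact hCcen (hmemC d.1)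

end Cfsg.Agent.Lib.Helper21.RealP
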