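import Mathlib
import Cfsg.Agent.Lib.Helper21.RealPF
import Cfsg.Agent.Lib.Helper83.OddReal2
import Cfsg.Agent.Lib.Helper19.GoingDown

/-!
# Real characters over a normal subgroup of odd index: constituents, multiplicity one, degrees
-/

set_option autoImplicit false

namespace Cfsg.Agent.Lib.Helper21.RealP

open Cfsg Cfsg.Agent.Lib.Helper20 Cfsg.Agent.Lib.Helper5 Cfsg.Agent.Lib.Helper78
  Cfsg.Agent.Lib.Helper83

section OddIndex

variable {G : Type*} [Group G] [Fintype G] (K : Subgroup G) [hK : K.Normal] [Fintype K]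

/-- every real irreducible character of `G` has a real constituent on a normal subgroup of odd
index -/
theorem exists_real_under (hodd : Odd K.index) (χ : IrrCharacter G)
    (hχ : ∀ g : G, ((χ : G → ℂ) g).im = 0) :
    ∃ θ : IrrCharacter K, (∀ k : K, ((θ : K → ℂ) k).im = 0) ∧
      classInner (fun n : K => (χ : G → ℂ) n) (θ : K → ℂ) ≠ 0 := by
  classical
  have hcard : Nat.card (Quot (relCh K)) =
      Nat.card {χ : IrrCharacter G // ∀ g : G, ((χ : G → ℂ) g).im = 0} := by
    rw [card_real_irr_eq, ← card_real_classes_eq K hodd]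
    exact real_orbits_main K hodd
  have hex : ∀ q : Quot (relCh K), ∃ χ : IrrCharacter G, (∀ g : G, ((χ : G → ℂ) g).im = 0) ∧
      classInner (fun n : K => (χ : G → ℂ) n) (q.out.1 : K → ℂ) ≠ 0 :=
    fun q => exists_real_over K hodd q.out.1.2 q.out.2
  let F : Quot (relCh K) → {χ : IrrCharacter G // ∀ g : G, ((χ : G → ℂ) g).im = 0} :=
    fun q => ⟨(hex q).choose, (hex q).choose_spec.1⟩
  have hF : ∀ q, classInner (fun n : K => ((F q).1 : G → ℂ) n) (q.out.1 : K → ℂ) ≠ 0 :=
    fun q => (hex q).choose_spec.2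
  have key : ∀ (χ : IrrCharacter G)
      (a b : {θ : Cfsg.IrrCharacter ↥K // (∀ k : ↥K, ((θ : ↥K → ℂ) k).im = 0)}),
      classInner (fun n : K => (χ : G → ℂ) n) (a.1 : K → ℂ) ≠ 0 →
      classInner (fun n : K => (χ : G → ℂ) n) (b.1 : K → ℂ) ≠ 0 →
      Quot.mk (relCh K) a = Quot.mk (relCh K) b := by
    intro χ a b ha hb
    by_contra hne
    apply hb
    apply clifford_inner_zero hK χ.2 a.1.2 ha b.1.2
    intro g hg
    apply hne
    symm
    apply Quot.sound
    refine ⟨g, ?_⟩
    intro k k' hk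
    rw [hg, cjF_apply]
    exact congrArg _ (Subtype.ext hk)
  have hinj : Function.Injective F := by
    intro q q' h
    have h1 := hF q
    have h2 := hF q'
    rw [← h] at h2
    have := key _ _ _ h1 h2
    rwa [Quot.out_eq, Quot.out_eq] at this
  have hbij : Function.Bijective F :=
    hinj.bijective_of_nat_card_le (le_of_eq hcard.symm)
  obtain ⟨q, hq⟩ := hbij.2 ⟨χ, hχ⟩
  refine ⟨q.out.1, q.out.2, ?_⟩
  have h1 := hF q
  rwa [hq] at h1

/-- the real character over a real character of a normal subgroup of odd index contains it with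
multiplicity one -/
theorem real_mult_one (hodd : Odd K.index) (θ : IrrCharacter K)
    (hθ : ∀ k : K, ((θ : K → ℂ) k).im = 0) (χ : IrrCharacter G)
    (hχ : ∀ g : G, ((χ : G → ℂ) g).im = 0)
    (hc : classInner (fun n : K => (χ : G → ℂ) n) (θ : K → ℂ) ≠ 0) :
    classInner (fun n : K => (χ : G → ℂ) n) (θ : K → ℂ) = 1 := by
  classical
  have := Fintype.ofFinite (IrrCharacter G)
  have h1 := fsNu_sum_restrict K hodd θ.2
  rw [Finset.sum_eq_single χ] at h1
  · obtain ⟨m, hm⟩ := isCharacter_classInner_nat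
      (isCharacter_restrict (isCharacter_of_isIrrCharacter χ.2) K) θ.2
    have hχ0 : fsNu (χ : G → ℂ) ≠ 0 := by
      intro h
      obtain ⟨s, hs⟩ := (fsNu_irr χ.2).2.mp h
      exact hs (hχ s)
    have hθ0 : fsNu (θ : K → ℂ) ≠ 0 := by
      intro h
      obtain ⟨s, hs⟩ := (fsNu_irr θ.2).2.mp h
      exact hs (hθ s)
    rw [hm] at h1 ⊢
    have hm1 : ((m : ℤ) : ℂ) = 1 ∨ ((m : ℤ) : ℂ) = -1 := by
      push_cast
      rcases (fsNu_irr χ.2).1 with h | h | h
      · exact absurd h hχ0
      · rcases (fsNu_irr θ.2).1 with h' | h' | h'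
        · exact absurd h' hθ0
        · left; rw [h, h', one_mul] at h1; exact h1
        · right; rw [h, h', one_mul] at h1; exact h1
      · rcases (fsNu_irr θ.2).1 with h' | h' | h'
        · exact absurd h' hθ0
        · right; rw [h, h'] at h1; linear_combination -h1
        · left; rw [h, h'] at h1; linear_combination -h1
    rcases hm1 with h | h
    · have : (m : ℤ) = 1 := by exact_mod_cast h
      have : m = 1 := by exact_mod_cast this
      rw [this]; simp
    · have : (m : ℤ) = -1 := by exact_mod_cast h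
      omega
  · intro χ' _ hne
    by_cases hr : ∀ g : G, ((χ' : G → ℂ) g).im = 0
    · have : classInner (fun n : K => (χ' : G → ℂ) n) (θ : K → ℂ) = 0 := by
        by_contra h0
        exact hne (real_over_unique K hodd θ.2 hθ χ' χ hr hχ h0 hc)
      rw [this, mul_zero]
    · push Not at hr
      obtain ⟨g, hg⟩ := hr
      rw [(fsNu_irr χ'.2).2.mpr ⟨g, hg⟩, zero_mul]
  · intro h
    exact absurd (Finset.mem_univ χ) h

/-- degree of the real character over a real character of a normal subgroup of odd index -/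
theorem real_degree (hodd : Odd K.index) (θ : IrrCharacter K)
    (hθ : ∀ k : K, ((θ : K → ℂ) k).im = 0) (χ : IrrCharacter G)
    (hχ : ∀ g : G, ((χ : G → ℂ) g).im = 0)
    (hc : classInner (fun n : K => (χ : G → ℂ) n) (θ : K → ℂ) ≠ 0) :
    charDegree (χ : G → ℂ) = (inertia hK (θ : K → ℂ)).index * charDegree (θ : K → ℂ) := by
  obtain ⟨e, he, hdeg⟩ := Cfsg.Agent.Lib.Helper19.clifford_degree hK χ.2 θ.2 hc
  rw [real_mult_one K hodd θ hθ χ hχ hc] at he
  rw [← he, one_mul, Cfsg.Agent.Lib.Helper19.ncard_conj_orbit_eq_index,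
    irr_one_eq_charDegree χ, irr_one_eq_charDegree θ] at hdeg
  exact_mod_cast hdeg

end OddIndex

end Cfsg.Agent.Lib.Helper21.RealP
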