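import Mathlib

/-!
# Two Sylow lemmas
-/

set_option autoImplicit false

namespace Cfsg.Agent.Lib.Helper21.RealP

/-- Sylow conjugacy inside a subgroup -/
theorem exists_mul_mem_normalizer {G : Type*} [Group G] [Finite G] (p : ℕ) [Fact p.Prime]
    (P : Sylow p G) (I : Subgroup G) (g : G) (h1 : (P : Subgroup G) ≤ I)
    (h2 : ∀ r ∈ (P : Subgroup G), g * r * g⁻¹ ∈ I) :
    ∃ i ∈ I, i * g ∈ Subgroup.normalizer ((P : Subgroup G) : Set G) := by
  have h2' : ↑(g • P) ≤ I := by
    rintro - ⟨z, hz, rfl⟩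
    exact h2 z hz
  obtain ⟨h, hh⟩ := MulAction.exists_smul_eq I ((g • P).subtype h2') (P.subtype h1)
  simp_rw [Sylow.smul_subtype, Subgroup.smul_def, smul_smul] at hh
  exact ⟨h, h.2, Sylow.smul_eq_iff_mem_normalizer.mp (Sylow.subtype_injective hh)⟩

/-- the index of an overgroup of a Sylow subgroup, modulo `p` -/
theorem index_modEq_relIndex {G : Type*} [Group G] [Finite G] (p : ℕ) [Fact p.Prime]
    (P : Sylow p G) (I : Subgroup G) (h1 : (P : Subgroup G) ≤ I) :
    I.index ≡ I.relIndex (Subgroup.normalizer ((P : Subgroup G) : Set G)) [MOD p] := by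
  classical
  have hmod := P.2.card_modEq_card_fixedPoints (G ⧸ I)
  rw [← Subgroup.index_eq_card] at hmod
  suffices hs : Nat.card (MulAction.fixedPoints P (G ⧸ I))
      = I.relIndex (Subgroup.normalizer ((P : Subgroup G) : Set G)) by
    rw [← hs]; exact hmod
  set N := Subgroup.normalizer ((P : Subgroup G) : Set G) with hN
  have hstab : MulAction.stabilizer N ((1 : G) : G ⧸ I) = I.subgroupOf N := by
    ext n
    rw [MulAction.mem_stabilizer_iff, Subgroup.mem_subgroupOf]
    have : n • ((1 : G) : G ⧸ I) = (((n : G) * 1 : G) : G ⧸ I) := rfl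
    rw [this, mul_one, eq_comm, QuotientGroup.eq, inv_one, one_mul]
  have horb : (MulAction.orbit N ((1 : G) : G ⧸ I)) = MulAction.fixedPoints P (G ⧸ I) := by
    ext x
    constructor
    · rintro ⟨n, rfl⟩ r
      show ((((r : G) * ((n : G) * 1) : G)) : G ⧸ I) = (((n : G) * 1 : G) : G ⧸ I)
      rw [mul_one, eq_comm, QuotientGroup.eq]
      apply h1
      have hn : (n : G)⁻¹ ∈ N := N.inv_mem n.2
      have := (Subgroup.mem_normalizer_iff.mp hn (r : G)).mp r.2
      rw [inv_inv] at this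
      rwa [← mul_assoc]
    · intro hx
      obtain ⟨g, rfl⟩ := QuotientGroup.mk_surjective x
      have h2 : ∀ r ∈ (P : Subgroup G), g⁻¹ * r * g⁻¹⁻¹ ∈ I := by
        intro r hr
        have h3 : (((r * g : G)) : G ⧸ I) = (g : G ⧸ I) := hx ⟨r, hr⟩
        have h4 := QuotientGroup.eq.mp h3.symm
        rw [inv_inv, mul_assoc]
        exact h4
      obtain ⟨i, hi, hn⟩ := exists_mul_mem_normalizer p P I g⁻¹ h1 h2
      refine ⟨⟨(i * g⁻¹)⁻¹, N.inv_mem hn⟩, ?_⟩
      show ((((i * g⁻¹)⁻¹ * 1 : G)) : G ⧸ I) = (g : G ⧸ I)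
      rw [mul_one, QuotientGroup.eq]
      have : ((i * g⁻¹)⁻¹)⁻¹ * g = i := by group
      rw [this]
      exact hi
  have h5 := MulAction.index_stabilizer N ((1 : G) : G ⧸ I)
  rw [hstab, horb] at h5
  rw [Nat.card_coe_set_eq, ← h5]
  rfl

end Cfsg.Agent.Lib.Helper21.RealP
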