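import Mathlib
import Cfsg.Agent.Lib.Helper77.NormSyl
import Cfsg.Agent.Lib.Helper77.GlaubReal

/-!
# The correspondence of `Helper77.normSyl_main`, packaged
-/

set_option autoImplicit false

namespace Cfsg.Agent.Lib.Helper21.RealP

open Cfsg Cfsg.Agent.Lib.Helper20 Cfsg.Agent.Lib.Helper5 Cfsg.Agent.Lib.Helper77

section Corr

variable {G : Type*} [Group G]

/-- abstract package of the correspondence -/
structure NS (p : ℕ) (P K C : Subgroup G) [Fintype C] (hCK : C ≤ K) : Prop where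
  data : ∀ χ : IrrCharacter K, (∀ x ∈ P, InvUnder K x (χ : K → ℂ)) →
      ∃ ξ : IrrCharacter C, (∀ x ∈ P, InvUnder C x (ξ : C → ℂ)) ∧ ∃ ε : ℤ, (ε = 1 ∨ ε = -1) ∧
        (∀ ξ' : IrrCharacter C, (∀ x ∈ P, InvUnder C x (ξ' : C → ℂ)) →
          ∃ m : ℕ, classInner (fun c : C => (χ : K → ℂ) ⟨c, hCK c.2⟩) (ξ' : C → ℂ) = m ∧
            (ξ' = ξ → (m : ZMod p) = (ε : ZMod p)) ∧ (ξ' ≠ ξ → (m : ZMod p) = 0)) ∧
        (charDegree (χ : K → ℂ) : ZMod p) = (ε : ZMod p) * (charDegree (ξ : C → ℂ) : ZMod p)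
  inj : ∀ χ χ' : IrrCharacter K, (∀ x ∈ P, InvUnder K x (χ : K → ℂ)) →
      (∀ x ∈ P, InvUnder K x (χ' : K → ℂ)) →
      ∀ ξ : IrrCharacter C, (∀ x ∈ P, InvUnder C x (ξ : C → ℂ)) →
      PCorr p hCK (χ : K → ℂ) (ξ : C → ℂ) → PCorr p hCK (χ' : K → ℂ) (ξ : C → ℂ) → χ = χ'
  surj : ∀ ξ : IrrCharacter C, (∀ x ∈ P, InvUnder C x (ξ : C → ℂ)) →
      ∃ χ : IrrCharacter K, (∀ x ∈ P, InvUnder K x (χ : K → ℂ)) ∧
        PCorr p hCK (χ : K → ℂ) (ξ : C → ℂ)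

variable {p : ℕ} [hp : Fact p.Prime] {P K C : Subgroup G} [Fintype C] {hCK : C ≤ K}

theorem NS.main (h : NS p P K C hCK) (θ : IrrCharacter K)
    (hθ : ∀ x ∈ P, InvUnder K x (θ : K → ℂ)) :
    ∃ φ : IrrCharacter C, (∀ x ∈ P, InvUnder C x (φ : C → ℂ)) ∧
      PCorr p hCK (θ : K → ℂ) (φ : C → ℂ) ∧
      ((charDegree (φ : C → ℂ) : ZMod p) = (charDegree (θ : K → ℂ) : ZMod p) ∨
        (charDegree (φ : C → ℂ) : ZMod p) = -(charDegree (θ : K → ℂ) : ZMod p)) ∧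
      ∀ φ' : IrrCharacter C, (∀ x ∈ P, InvUnder C x (φ' : C → ℂ)) →
        PCorr p hCK (θ : K → ℂ) (φ' : C → ℂ) → φ' = φ := by
  obtain ⟨φ, hφ, ε, hε, hm, hdeg⟩ := h.data θ hθ
  refine ⟨φ, hφ, ?_, ?_, ?_⟩
  · obtain ⟨m, hm1, hm2, -⟩ := hm φ hφ
    refine ⟨m, hm1, fun hd => ?_⟩
    have h1 := hm2 rfl
    rw [(ZMod.natCast_eq_zero_iff _ _).2 hd] at h1
    exact sign_ne_zero_zmod p hε h1.symm
  · rcases hε with rfl | rfl
    · left; rw [hdeg]; simp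
    · right; rw [hdeg]; simp
  · intro φ' hφ' ⟨m', hm', hpm'⟩
    by_contra hne
    obtain ⟨m, hm1, -, hm3⟩ := hm φ' hφ'
    have : m' = m := by
      have : (m' : ℂ) = (m : ℂ) := by rw [← hm1, ← hm']
      exact_mod_cast this
    subst this
    exact hpm' ((ZMod.natCast_eq_zero_iff _ _).1 (hm3 hne))

theorem NS.unique (h : NS p P K C hCK) (θ : IrrCharacter K)
    (hθ : ∀ x ∈ P, InvUnder K x (θ : K → ℂ)) (φ₁ φ₂ : IrrCharacter C)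
    (h₁ : ∀ x ∈ P, InvUnder C x (φ₁ : C → ℂ)) (h₂ : ∀ x ∈ P, InvUnder C x (φ₂ : C → ℂ))
    (c₁ : PCorr p hCK (θ : K → ℂ) (φ₁ : C → ℂ)) (c₂ : PCorr p hCK (θ : K → ℂ) (φ₂ : C → ℂ)) :
    φ₁ = φ₂ := by
  obtain ⟨φ, -, -, -, hu⟩ := h.main θ hθ
  rw [hu φ₁ h₁ c₁, hu φ₂ h₂ c₂]

theorem NS.deg (h : NS p P K C hCK) (θ : IrrCharacter K)
    (hθ : ∀ x ∈ P, InvUnder K x (θ : K → ℂ)) (φ : IrrCharacter C)
    (hφ : ∀ x ∈ P, InvUnder C x (φ : C → ℂ)) (c : PCorr p hCK (θ : K → ℂ) (φ : C → ℂ)) :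
    (charDegree (φ : C → ℂ) : ZMod p) = (charDegree (θ : K → ℂ) : ZMod p) ∨
        (charDegree (φ : C → ℂ) : ZMod p) = -(charDegree (θ : K → ℂ) : ZMod p) := by
  obtain ⟨φ', -, -, hd, hu⟩ := h.main θ hθ
  rw [hu φ hφ c]
  exact hd

variable [Finite G]

theorem NS.real_down (h : NS p P K C hCK) (θ : IrrCharacter K)
    (hθ : ∀ x ∈ P, InvUnder K x (θ : K → ℂ)) (φ : IrrCharacter C)
    (hφ : ∀ x ∈ P, InvUnder C x (φ : C → ℂ)) (c : PCorr p hCK (θ : K → ℂ) (φ : C → ℂ))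
    (hr : ∀ k : K, ((θ : K → ℂ) k).im = 0) : ∀ k : C, ((φ : C → ℂ) k).im = 0 := by
  rw [← cbar_eq_iff]
  have h1 := c.cbar
  rw [(cbar_eq_iff θ).2 hr] at h1
  exact h.unique θ hθ _ _ (fun s hs => invUnder_cbar (hφ s hs)) hφ h1 c

theorem NS.real_up (h : NS p P K C hCK) (θ : IrrCharacter K)
    (hθ : ∀ x ∈ P, InvUnder K x (θ : K → ℂ)) (φ : IrrCharacter C)
    (hφ : ∀ x ∈ P, InvUnder C x (φ : C → ℂ)) (c : PCorr p hCK (θ : K → ℂ) (φ : C → ℂ))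
    (hr : ∀ k : C, ((φ : C → ℂ) k).im = 0) : ∀ k : K, ((θ : K → ℂ) k).im = 0 := by
  rw [← cbar_eq_iff]
  have h1 := c.cbar
  rw [(cbar_eq_iff φ).2 hr] at h1
  exact h.inj _ _ (fun s hs => invUnder_cbar (hθ s hs)) hθ φ hφ h1 c

/-- conjugate of an irreducible character of a subgroup by a normalising element -/
noncomputable def cjI (X : Subgroup G) (n : G) (hn : n ∈ Subgroup.normalizer (X : Set G))
    (θ : IrrCharacter X) : IrrCharacter X :=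
  ⟨(θ : X → ℂ) ∘ cjAut X n hn, isIrrCharacter_comp_equiv _ θ.2⟩

theorem cjI_inv (X : Subgroup G) (n : G) (hn : n ∈ Subgroup.normalizer (X : Set G))
    (θ : IrrCharacter X) (hnP : ∀ t ∈ P, n * t * n⁻¹ ∈ P)
    (hθ : ∀ x ∈ P, InvUnder X x (θ : X → ℂ)) : ∀ x ∈ P, InvUnder X x (cjI X n hn θ : X → ℂ) := by
  intro t ht g g' hg
  show (θ : X → ℂ) (cjAut X n hn g') = (θ : X → ℂ) (cjAut X n hn g)
  apply hθ (n * t * n⁻¹) (hnP t ht)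
  rw [cjAut_coe, cjAut_coe, hg]; group

theorem cjI_real (X : Subgroup G) (n : G) (hn : n ∈ Subgroup.normalizer (X : Set G))
    (θ : IrrCharacter X) (hr : ∀ k : X, ((θ : X → ℂ) k).im = 0) :
    ∀ k : X, ((cjI X n hn θ : X → ℂ) k).im = 0 := fun k => hr _

theorem pcorr_cjI (n : G) (hnK : n ∈ Subgroup.normalizer (K : Set G))
    (hnC : n ∈ Subgroup.normalizer (C : Set G)) (θ : IrrCharacter K) (φ : IrrCharacter C)
    (c : PCorr p hCK (θ : K → ℂ) (φ : C → ℂ)) :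
    PCorr p hCK (cjI K n hnK θ : K → ℂ) (cjI C n hnC φ : C → ℂ) := by
  obtain ⟨m, hm, hpm⟩ := c
  exact ⟨m, (inner_cj hCK n hnK hnC (θ : K → ℂ) (φ : C → ℂ)).trans hm, hpm⟩

end Corr

end Cfsg.Agent.Lib.Helper21.RealP
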