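import Mathlib
import Cfsg.Agent.Lib.Helper21.RealPH
import Cfsg.Agent.Lib.Helper21.RealPI
import Cfsg.Agent.Lib.Helper21.RealPJ

/-!
# The relation between real characters of `G` and of `N_G(P)`
-/

set_option autoImplicit false
set_option linter.unusedSectionVars false
set_option linter.unusedVariables false

namespace Cfsg.Agent.Lib.Helper21.RealP

open Cfsg Cfsg.Agent.Lib.Helper20 Cfsg.Agent.Lib.Helper5 Cfsg.Agent.Lib.Helper77
  Cfsg.Agent.Lib.Helper83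

section Bridge

variable {G : Type*} [Group G] [Finite G]

theorem cjF_eq_cjI (K : Subgroup G) (hK : K.Normal) (g : G)
    (hg : g ∈ Subgroup.normalizer (K : Set G)) (θ : IrrCharacter K) :
    cjF hK (θ : K → ℂ) g = (cjI K g hg θ : K → ℂ) := rfl

theorem invUnder_iff_cjF (K : Subgroup G) (hK : K.Normal) (x : G) (θ : K → ℂ) :
    InvUnder K x θ ↔ cjF hK θ x = θ := by
  constructor
  · intro h
    funext k
    exact h k _ rfl
  · intro h k k' hk
    have h1 := congrFun h k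
    rw [cjF_apply] at h1
    rw [← h1]
    exact congrArg θ (Subtype.ext hk)

/-- transport of a character of `C` to `C.subgroupOf N` -/
noncomputable def toD {C N : Subgroup G} (hCN : C ≤ N) (φ : IrrCharacter C) :
    IrrCharacter (C.subgroupOf N) :=
  irrEquiv (Subgroup.subgroupOfEquivOfLe hCN) φ

theorem toD_apply {C N : Subgroup G} (hCN : C ≤ N) (φ : IrrCharacter C) (d : C.subgroupOf N) :
    (toD hCN φ : C.subgroupOf N → ℂ) d = (φ : C → ℂ) ⟨((d : N) : G), d.2⟩ := rfl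

theorem toD_injective {C N : Subgroup G} (hCN : C ≤ N) : Function.Injective (toD hCN) :=
  (irrEquiv (Subgroup.subgroupOfEquivOfLe hCN)).injective

theorem toD_surjective {C N : Subgroup G} (hCN : C ≤ N) : Function.Surjective (toD hCN) :=
  (irrEquiv (Subgroup.subgroupOfEquivOfLe hCN)).surjective

theorem toD_real {C N : Subgroup G} (hCN : C ≤ N) (φ : IrrCharacter C) :
    (∀ d, ((toD hCN φ : C.subgroupOf N → ℂ) d).im = 0) ↔ ∀ c, ((φ : C → ℂ) c).im = 0 := by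
  constructor
  · intro h c
    exact h ⟨⟨c, hCN c.2⟩, c.2⟩
  · intro h d
    exact h _

theorem charDegree_toD {C N : Subgroup G} (hCN : C ≤ N) (φ : IrrCharacter C) :
    charDegree (toD hCN φ : C.subgroupOf N → ℂ) = charDegree (φ : C → ℂ) := by
  have h1 := irr_one_eq_charDegree (toD hCN φ)
  have h2 := irr_one_eq_charDegree φ
  have h3 : (toD hCN φ : C.subgroupOf N → ℂ) 1 = (φ : C → ℂ) 1 := rfl
  rw [h3, h2] at h1
  exact_mod_cast h1.symm

theorem cjF_toD {C N : Subgroup G} (hCN : C ≤ N) (hD : (C.subgroupOf N).Normal) (n : N)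
    (hn : (n : G) ∈ Subgroup.normalizer (C : Set G)) (φ : IrrCharacter C) :
    cjF hD (toD hCN φ : C.subgroupOf N → ℂ) n = (toD hCN (cjI C n hn φ) : C.subgroupOf N → ℂ) :=
  rfl

end Bridge


section Main

variable {G : Type*} [Group G] [Fintype G] {p : ℕ} [hp : Fact p.Prime]
  (K : Subgroup G) [hK : K.Normal] [Fintype K] (hodd : Odd K.index)
  (P : Sylow p G) (N C : Subgroup G) [Fintype C] [Fintype N] [Fintype (C.subgroupOf N)]
  (hN : N = Subgroup.normalizer ((P : Subgroup G) : Set G)) (hC : C = K ⊓ N)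
  (hCK : C ≤ K) (hCN : C ≤ N)
  (hNS : NS p (P : Subgroup G) K C hCK)

include hN in
/-- two `P`-invariant `G`-conjugate characters of `K` are `N_G(P)`-conjugate -/
theorem conj_in_normalizer (θ : K → ℂ) (g : G)
    (h1 : ∀ x ∈ (P : Subgroup G), cjF hK θ x = θ)
    (h2 : ∀ x ∈ (P : Subgroup G), cjF hK (cjF hK θ g) x = cjF hK θ g) :
    ∃ n ∈ N, cjF hK θ g = cjF hK θ n := by
  have hle : (P : Subgroup G) ≤ inertia hK θ := fun x hx => (mem_inertia hK θ x).mpr (h1 x hx)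
  have hconj : ∀ r ∈ (P : Subgroup G), g * r * g⁻¹ ∈ inertia hK θ := by
    intro r hr
    rw [mem_inertia]
    have h3 := congrArg (fun ψ => cjF hK ψ g⁻¹) (h2 r hr)
    simp only [cjF_cjF, mul_inv_cancel, cjF_one] at h3
    exact h3
  obtain ⟨i, hi, hn⟩ := exists_mul_mem_normalizer p P _ g hle hconj
  refine ⟨i * g, hN ▸ hn, ?_⟩
  rw [← cjF_cjF, (mem_inertia hK θ i).mp hi]

include hN in
theorem conj_mem_P (n : G) (hn : n ∈ N) : ∀ t ∈ (P : Subgroup G), n * t * n⁻¹ ∈ (P : Subgroup G) := by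
  intro t ht
  rw [hN] at hn
  exact (Subgroup.mem_normalizer_iff.mp hn t).mp ht

theorem mem_normalizer_K (n : G) : n ∈ Subgroup.normalizer (K : Set G) := by
  rw [Subgroup.normalizer_eq_top K]; trivial

include hC in
theorem mem_normalizer_C (n : G) (hn : n ∈ N) : n ∈ Subgroup.normalizer (C : Set G) := by
  rw [Subgroup.mem_normalizer_iff]
  intro c
  rw [hC, Subgroup.mem_inf, Subgroup.mem_inf]
  constructor
  · rintro ⟨h1, h2⟩
    exact ⟨hK.conj_mem c h1 n, N.mul_mem (N.mul_mem hn h2) (N.inv_mem hn)⟩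
  · rintro ⟨h1, h2⟩
    have e : c = n⁻¹ * (n * c * n⁻¹) * n⁻¹⁻¹ := by group
    rw [e]
    exact ⟨hK.conj_mem _ h1 n⁻¹, N.mul_mem (N.mul_mem (N.inv_mem hn) h2) (N.inv_mem (N.inv_mem hn))⟩

include hC in
theorem normal_D : (C.subgroupOf N).Normal := by
  rw [hC, Subgroup.inf_subgroupOf_right]
  infer_instance

include hC hodd in
theorem odd_index_D : Odd (C.subgroupOf N).index := by
  have h1 : (C.subgroupOf N).index = K.relIndex N := by
    rw [hC, Subgroup.inf_subgroupOf_right]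
    rfl
  rw [h1]
  exact Odd.of_dvd_nat hodd (Subgroup.relIndex_dvd_index_of_normal K N)

/-- the relation defining the bijection -/
def Rel (χ : IrrCharacter G) (ξ : IrrCharacter N) : Prop :=
  ∃ (θ : IrrCharacter K) (φ : IrrCharacter C),
   (∀ k, ((θ : K → ℂ) k).im = 0) ∧ (∀ x ∈ (P : Subgroup G), InvUnder K x (θ : K → ℂ)) ∧
   (∀ c, ((φ : C → ℂ) c).im = 0) ∧ (∀ x ∈ (P : Subgroup G), InvUnder C x (φ : C → ℂ)) ∧
   classInner (fun k : K => (χ : G → ℂ) k) (θ : K → ℂ) ≠ 0 ∧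
   classInner (fun d : C.subgroupOf N => (ξ : N → ℂ) d) (toD hCN φ : C.subgroupOf N → ℂ) ≠ 0 ∧
   PCorr p hCK (θ : K → ℂ) (φ : C → ℂ)

include hodd hN hC hNS in
theorem rel_unique_right (χ : IrrCharacter G) (ξ ξ' : IrrCharacter N)
    (hξ : ∀ n, ((ξ : N → ℂ) n).im = 0) (hξ' : ∀ n, ((ξ' : N → ℂ) n).im = 0)
    (h : Rel K P N C hCK hCN χ ξ) (h' : Rel K P N C hCK hCN χ ξ') : ξ = ξ' := by
  obtain ⟨θ, φ, hθr, hθP, hφr, hφP, hχθ, hξφ, hc⟩ := h
  obtain ⟨θ', φ', hθ'r, hθ'P, hφ'r, hφ'P, hχθ', hξφ', hc'⟩ := h'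
  have hD := normal_D K N C hC
  obtain ⟨g, hg⟩ : ∃ g, (θ' : K → ℂ) = cjF hK (θ : K → ℂ) g := by
    by_contra hne
    push Not at hne
    exact hχθ' (clifford_inner_zero hK χ.2 θ.2 hχθ θ'.2 hne)
  obtain ⟨n, hnN, hn⟩ := conj_in_normalizer K P N hN (θ : K → ℂ) g
    (fun x hx => (invUnder_iff_cjF K hK x _).mp (hθP x hx))
    (fun x hx => by rw [← hg]; exact (invUnder_iff_cjF K hK x _).mp (hθ'P x hx))
  have e1 : θ' = cjI K n (mem_normalizer_K K n) θ := Subtype.ext (hg.trans hn)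
  have c2 : PCorr p hCK (θ' : K → ℂ) (cjI C n (mem_normalizer_C K N C hC n hnN) φ : C → ℂ) := by
    rw [e1]
    exact pcorr_cjI n _ _ θ φ hc
  have e2 : φ' = cjI C n (mem_normalizer_C K N C hC n hnN) φ :=
    hNS.unique θ' hθ'P _ _ hφ'P (cjI_inv C n _ φ (conj_mem_P P N hN n hnN) hφP) hc' c2
  have h3 : classInner (fun d : C.subgroupOf N => (ξ : N → ℂ) d)
      (toD hCN φ' : C.subgroupOf N → ℂ) ≠ 0 := by
    rw [e2, ← cjF_toD hCN hD ⟨n, hnN⟩, clifford_inner_conj hD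
      (isClassFunction_of_isCharacter (isCharacter_of_isIrrCharacter ξ.2))]
    exact hξφ
  exact @real_over_unique N _ _ (C.subgroupOf N) hD (odd_index_D K hodd N C hC) _ _ (toD hCN φ').2
    ((toD_real hCN φ').mpr hφ'r) ξ ξ' hξ hξ' h3 hξφ'

include hodd hN hC hNS in
theorem rel_unique_left (χ χ' : IrrCharacter G) (ξ : IrrCharacter N)
    (hχ : ∀ n, ((χ : G → ℂ) n).im = 0) (hχ' : ∀ n, ((χ' : G → ℂ) n).im = 0)
    (h : Rel K P N C hCK hCN χ ξ) (h' : Rel K P N C hCK hCN χ' ξ) : χ = χ' := by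
  obtain ⟨θ, φ, hθr, hθP, hφr, hφP, hχθ, hξφ, hc⟩ := h
  obtain ⟨θ', φ', hθ'r, hθ'P, hφ'r, hφ'P, hχθ', hξφ', hc'⟩ := h'
  have hD := normal_D K N C hC
  obtain ⟨n, hn⟩ : ∃ n : N, (toD hCN φ' : C.subgroupOf N → ℂ)
      = cjF hD (toD hCN φ : C.subgroupOf N → ℂ) n := by
    by_contra hne
    push Not at hne
    exact hξφ' (clifford_inner_zero hD ξ.2 (toD hCN φ).2 hξφ (toD hCN φ').2 hne)
  have e2 : φ' = cjI C n (mem_normalizer_C K N C hC n n.2) φ := by
    apply toD_injective hCN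
    apply Subtype.ext
    rw [hn, cjF_toD hCN hD n (mem_normalizer_C K N C hC n n.2)]
  have c2 : PCorr p hCK (cjI K n (mem_normalizer_K K n) θ : K → ℂ) (φ' : C → ℂ) := by
    rw [e2]
    exact pcorr_cjI (n : G) _ _ θ φ hc
  have e1 : cjI K n (mem_normalizer_K K n) θ = θ' :=
    hNS.inj _ _ (cjI_inv K n _ θ (conj_mem_P P N hN n n.2) hθP) hθ'P φ' hφ'P c2 hc'
  have h3 : classInner (fun k : K => (χ : G → ℂ) k) (θ' : K → ℂ) ≠ 0 := by
    rw [← e1, ← cjF_eq_cjI K hK, clifford_inner_conj hK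
      (isClassFunction_of_isCharacter (isCharacter_of_isIrrCharacter χ.2))]
    exact hχθ
  exact real_over_unique K hodd θ'.2 hθ'r χ χ' hχ hχ' h3 hχθ'


include hN hC hNS in
theorem inertia_toD (θ : IrrCharacter K) (φ : IrrCharacter C)
    (hθP : ∀ x ∈ (P : Subgroup G), InvUnder K x (θ : K → ℂ))
    (hφP : ∀ x ∈ (P : Subgroup G), InvUnder C x (φ : C → ℂ))
    (hc : PCorr p hCK (θ : K → ℂ) (φ : C → ℂ)) (hD : (C.subgroupOf N).Normal) :
    inertia hD (toD hCN φ : C.subgroupOf N → ℂ) = (inertia hK (θ : K → ℂ)).subgroupOf N := by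
  ext n
  rw [mem_inertia, Subgroup.mem_subgroupOf, mem_inertia]
  have hnC := mem_normalizer_C K N C hC n n.2
  have hnK := mem_normalizer_K K (n : G)
  have c2 := pcorr_cjI (n : G) hnK hnC θ φ hc
  constructor
  · intro h
    have e2 : cjI C n hnC φ = φ := by
      apply toD_injective hCN
      apply Subtype.ext
      rw [← cjF_toD hCN hD n hnC, h]
    rw [e2] at c2
    have e1 : cjI K n hnK θ = θ :=
      hNS.inj _ _ (cjI_inv K n _ θ (conj_mem_P P N hN n n.2) hθP) hθP φ hφP c2 hc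
    rw [cjF_eq_cjI K hK (n : G) hnK, e1]
  · intro h
    have e1 : cjI K n hnK θ = θ := Subtype.ext ((cjF_eq_cjI K hK (n : G) hnK θ).symm.trans h)
    rw [e1] at c2
    have e2 : cjI C n hnC φ = φ :=
      hNS.unique θ hθP _ _ (cjI_inv C n _ φ (conj_mem_P P N hN n n.2) hφP) hφP c2 hc
    rw [cjF_toD hCN hD n hnC, e2]

include hodd hN hC hNS in
theorem rel_degree (χ : IrrCharacter G) (ξ : IrrCharacter N)
    (hχ : ∀ n, ((χ : G → ℂ) n).im = 0) (hξ : ∀ n, ((ξ : N → ℂ) n).im = 0)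
    (h : Rel K P N C hCK hCN χ ξ) :
    (charDegree (ξ : N → ℂ) : ZMod p) = (charDegree (χ : G → ℂ) : ZMod p) ∨
      (charDegree (ξ : N → ℂ) : ZMod p) = -(charDegree (χ : G → ℂ) : ZMod p) := by
  obtain ⟨θ, φ, hθr, hθP, hφr, hφP, hχθ, hξφ, hc⟩ := h
  have hD := normal_D K N C hC
  have d1 := real_degree K hodd θ hθr χ hχ hχθ
  have d2 := @real_degree N _ _ (C.subgroupOf N) hD _ (odd_index_D K hodd N C hC) (toD hCN φ)
    ((toD_real hCN φ).mpr hφr) ξ hξ hξφ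
  have hle : (P : Subgroup G) ≤ inertia hK (θ : K → ℂ) :=
    fun x hx => (mem_inertia hK _ x).mpr ((invUnder_iff_cjF K hK x _).mp (hθP x hx))
  have idx : (inertia hD (toD hCN φ : C.subgroupOf N → ℂ)).index
      = (inertia hK (θ : K → ℂ)).relIndex N := by
    rw [inertia_toD K P N C hN hC hCK hCN hNS θ φ hθP hφP hc hD]
    rfl
  have hmod := index_modEq_relIndex p P _ hle
  rw [← hN] at hmod
  have hcast := (ZMod.natCast_eq_natCast_iff _ _ _).mpr hmod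
  rw [d1, d2, idx, charDegree_toD]
  push_cast
  rw [hcast]
  rcases hNS.deg θ hθP φ hφP hc with h | h
  · left; rw [h]
  · right; rw [h]; ring

include hodd hN hC hNS in
theorem rel_exists_right (hreal : RealPrime p G) (χ : IrrCharacter G)
    (hχ : ∀ n, ((χ : G → ℂ) n).im = 0) :
    ∃ ξ : IrrCharacter N, (∀ n, ((ξ : N → ℂ) n).im = 0) ∧ Rel K P N C hCK hCN χ ξ := by
  have hD := normal_D K N C hC
  obtain ⟨θ₀, hθ₀r, hχθ₀⟩ := exists_real_under K hodd χ hχ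
  obtain ⟨g, hg⟩ := exists_inv_conj p K hodd hreal P P.2 θ₀ hθ₀r
  have hgK := mem_normalizer_K K g
  have hθP : ∀ x ∈ (P : Subgroup G), InvUnder K x (cjI K g hgK θ₀ : K → ℂ) :=
    fun x hx => (invUnder_iff_cjF K hK x _).mpr (hg x hx)
  have hθr := cjI_real K g hgK θ₀ hθ₀r
  have hχθ : classInner (fun k : K => (χ : G → ℂ) k) (cjI K g hgK θ₀ : K → ℂ) ≠ 0 := by
    rw [← cjF_eq_cjI K hK, clifford_inner_conj hK
      (isClassFunction_of_isCharacter (isCharacter_of_isIrrCharacter χ.2))]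
    exact hχθ₀
  obtain ⟨φ, hφP, hc, -, -⟩ := hNS.main _ hθP
  have hφr := hNS.real_down _ hθP φ hφP hc hθr
  obtain ⟨ξ, hξr, hξφ⟩ := @exists_real_over N _ _ (C.subgroupOf N) hD _
    (odd_index_D K hodd N C hC) _ (toD hCN φ).2 ((toD_real hCN φ).mpr hφr)
  exact ⟨ξ, hξr, _, φ, hθr, hθP, hφr, hφP, hχθ, hξφ, hc⟩

include hodd hN hC hNS in
theorem rel_exists_left (ξ : IrrCharacter N) (hξ : ∀ n, ((ξ : N → ℂ) n).im = 0)
    (hpξ : ¬ p ∣ charDegree (ξ : N → ℂ)) :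
    ∃ χ : IrrCharacter G, (∀ n, ((χ : G → ℂ) n).im = 0) ∧ Rel K P N C hCK hCN χ ξ := by
  have hD := normal_D K N C hC
  obtain ⟨φD, hφDr, hξφD⟩ := @exists_real_under N _ _ (C.subgroupOf N) hD _
    (odd_index_D K hodd N C hC) ξ hξ
  obtain ⟨φ, rfl⟩ := toD_surjective hCN φD
  have hφr := (toD_real hCN φ).mp hφDr
  have hidx : ¬ p ∣ (inertia hD (toD hCN φ : C.subgroupOf N → ℂ)).index :=
    fun h => hpξ (h.trans (index_inertia_dvd hD (toD hCN φ).2 ξ.2 hξφD))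
  have hPN : (P : Subgroup G) ≤ N := hN ▸ Subgroup.le_normalizer
  have hR : IsPGroup p ((P : Subgroup G).subgroupOf N) := P.2.comap_subtype
  obtain ⟨g, hg⟩ := exists_conj_le_of_not_dvd_index p _ hR _ hidx
  have hφP : ∀ x ∈ (P : Subgroup G), InvUnder C x (φ : C → ℂ) := by
    intro x hx
    have hxC := mem_normalizer_C K N C hC x (hPN hx)
    have h1 : g * ⟨x, hPN hx⟩ * g⁻¹ ∈ (P : Subgroup G).subgroupOf N := by
      rw [Subgroup.mem_subgroupOf]
      exact conj_mem_P P N hN g g.2 x hx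
    have h2 := hg _ h1
    have e : g⁻¹ * (g * ⟨x, hPN hx⟩ * g⁻¹) * g = ⟨x, hPN hx⟩ := by group
    rw [e, mem_inertia, cjF_toD hCN hD ⟨x, hPN hx⟩ hxC] at h2
    have e2 : cjI C x hxC φ = φ := toD_injective hCN (Subtype.ext h2)
    rw [← comp_cjAut_eq_iff x hxC]
    exact congrArg Subtype.val e2
  obtain ⟨θ, hθP, hc⟩ := hNS.surj φ hφP
  have hθr := hNS.real_up θ hθP φ hφP hc hφr
  obtain ⟨χ, hχr, hχθ⟩ := exists_real_over K hodd θ.2 hθr
  exact ⟨χ, hχr, θ, φ, hθr, hθP, hφr, hφP, hχθ, hξφD, hc⟩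

include hodd hN hC hNS hCN in
theorem exists_bijection (hreal : RealPrime p G) :
    ∃ f : {χ : IrrCharacter G // ∀ g : G, ((χ : G → ℂ) g).im = 0} →
      {ξ : IrrCharacter N // (∀ n, ((ξ : N → ℂ) n).im = 0) ∧ ¬ p ∣ charDegree (ξ : N → ℂ)},
      Function.Bijective f ∧ ∀ χ,
        ((charDegree ((f χ).1 : N → ℂ) : ZMod p) = (charDegree (χ.1 : G → ℂ) : ZMod p) ∨
          (charDegree ((f χ).1 : N → ℂ) : ZMod p) = -(charDegree (χ.1 : G → ℂ) : ZMod p)) := by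
  have hex := fun χ : {χ : IrrCharacter G // ∀ g : G, ((χ : G → ℂ) g).im = 0} =>
    rel_exists_right K hodd P N C hN hC hCK hCN hNS hreal χ.1 χ.2
  choose F hF1 hF2 using hex
  have hdeg := fun χ : {χ : IrrCharacter G // ∀ g : G, ((χ : G → ℂ) g).im = 0} =>
    rel_degree K hodd P N C hN hC hCK hCN hNS χ.1 (F χ) χ.2 (hF1 χ) (hF2 χ)
  have hp' : ∀ χ, ¬ p ∣ charDegree (F χ : N → ℂ) := by
    intro χ hd
    apply hreal χ.1 χ.2
    rw [← ZMod.natCast_eq_zero_iff] at hd ⊢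
    rcases hdeg χ with h | h
    · rw [← h, hd]
    · rw [hd] at h
      exact neg_eq_zero.mp h.symm
  refine ⟨fun χ => ⟨F χ, hF1 χ, hp' χ⟩, ⟨?_, ?_⟩, hdeg⟩
  · intro χ χ' h
    have h1 : F χ = F χ' := congrArg Subtype.val h
    apply Subtype.ext
    exact rel_unique_left K hodd P N C hN hC hCK hCN hNS χ.1 χ'.1 (F χ) χ.2 χ'.2 (hF2 χ)
      (h1 ▸ hF2 χ')
  · rintro ⟨ξ, hξr, hξp⟩
    obtain ⟨χ, hχr, hrel⟩ := rel_exists_left K hodd P N C hN hC hCK hCN hNS ξ hξr hξp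
    refine ⟨⟨χ, hχr⟩, ?_⟩
    apply Subtype.ext
    exact rel_unique_right K hodd P N C hN hC hCK hCN hNS χ _ ξ (hF1 ⟨χ, hχr⟩) hξr
      (hF2 ⟨χ, hχr⟩) hrel

end Main

end Cfsg.Agent.Lib.Helper21.RealP
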