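import Mathlib
import Cfsg.Agent.Lib.Helper21.RealPK

/-!
# Bijection between real characters of `G` and real `p'`-degree characters of `N_G(P)`
-/

set_option autoImplicit false

namespace Cfsg.Agent.Lib.Helper21.RealP

open Cfsg Cfsg.Agent.Lib.Helper20 Cfsg.Agent.Lib.Helper5 Cfsg.Agent.Lib.Helper77

universe u

theorem real_bijection {G : Type u} [Group G] [Finite G] (p : ℕ) [Fact p.Prime]
    (hs : Group.IsSolvable ↥(gen p G)) (hreal : RealPrime p G) (P : Sylow p G) :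
    ∃ f : {χ : IrrCharacter G // ∀ g : G, ((χ : G → ℂ) g).im = 0} →
      {ξ : IrrCharacter ↥(Subgroup.normalizer ((P : Subgroup G) : Set G)) //
        (∀ n, ((ξ : ↥(Subgroup.normalizer ((P : Subgroup G) : Set G)) → ℂ) n).im = 0) ∧
        ¬ p ∣ charDegree (ξ : ↥(Subgroup.normalizer ((P : Subgroup G) : Set G)) → ℂ)},
      Function.Bijective f ∧ ∀ χ,
        ((charDegree ((f χ).1 : ↥(Subgroup.normalizer ((P : Subgroup G) : Set G)) → ℂ) : ZMod p)
            = (charDegree (χ.1 : G → ℂ) : ZMod p) ∨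
          (charDegree ((f χ).1 : ↥(Subgroup.normalizer ((P : Subgroup G) : Set G)) → ℂ) : ZMod p)
            = -(charDegree (χ.1 : G → ℂ) : ZMod p)) := by
  classical
  have hp : p.Prime := Fact.out
  have hKn := gen_normal 2 G
  obtain ⟨Q'⟩ : Nonempty (Sylow p ↥(gen 2 G)) := inferInstance
  have hQ'n : (Q' : Subgroup ↥(gen 2 G)).Normal :=
    core_A p _ ↥(gen 2 G) rfl (gen_gen_top 2 G) (solvable_gen_sub p (gen 2 G) hs)
      (realPrime_sub p (gen 2 G) (odd_index_gen_two G) hreal) Q'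
  have hQ'c : (Q' : Subgroup ↥(gen 2 G)).Characteristic := Sylow.characteristic_of_normal Q' hQ'n
  obtain ⟨Q, hQ⟩ : ∃ Q : Subgroup G, Q = (Q' : Subgroup ↥(gen 2 G)).map (gen 2 G).subtype :=
    ⟨_, rfl⟩
  have hQn : Q.Normal := hQ ▸ ConjAct.normal_of_characteristic_of_normal
  have hQp : IsPGroup p Q := hQ ▸ Q'.2.map _
  have hQP : Q ≤ P := Cfsg.Agent.Lib.Helper58.normal_pgroup_le_sylow _ hQp P
  have hQK : Q ≤ gen 2 G := hQ ▸ Subgroup.map_subtype_le _
  have hQsub : Q.subgroupOf (gen 2 G) = (Q' : Subgroup ↥(gen 2 G)) := by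
    rw [hQ]
    exact Subgroup.comap_map_eq_self_of_injective (Subgroup.subtype_injective _) _
  have hQsyl : ¬ p ∣ Q.relIndex (gen 2 G) := by
    have : Q.relIndex (gen 2 G) = (Q' : Subgroup ↥(gen 2 G)).index := by
      rw [← hQsub]; rfl
    rw [this]
    exact Sylow.not_dvd_index Q'
  have hKP : gen 2 G ⊓ (P : Subgroup G) ≤ Q := by
    intro x hx
    obtain ⟨hxK, hxP⟩ := Subgroup.mem_inf.mp hx
    have hR : IsPGroup p ((P : Subgroup G).subgroupOf (gen 2 G)) := P.2.comap_subtype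
    obtain ⟨S, hS⟩ := hR.exists_le_sylow
    have := Sylow.unique_of_normal Q' hQ'n
    have hSQ : S = Q' := Subsingleton.elim _ _
    have h1 : (⟨x, hxK⟩ : ↥(gen 2 G)) ∈ (Q' : Subgroup ↥(gen 2 G)) :=
      hSQ ▸ hS (Subgroup.mem_subgroupOf.mpr hxP)
    rw [hQ]
    exact ⟨⟨x, hxK⟩, h1, rfl⟩
  obtain ⟨C, hC⟩ : ∃ C : Subgroup G,
      C = gen 2 G ⊓ Subgroup.normalizer ((P : Subgroup G) : Set G) := ⟨_, rfl⟩
  have hCK : C ≤ gen 2 G := hC ▸ inf_le_left
  have hCN : C ≤ Subgroup.normalizer ((P : Subgroup G) : Set G) := hC ▸ inf_le_right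
  have hC' : ∀ k : G, k ∈ C ↔ (k ∈ gen 2 G ∧ ∀ x ∈ (P : Subgroup G), x * k * x⁻¹ * k⁻¹ ∈ Q) := by
    intro k
    rw [hC, Subgroup.mem_inf]
    constructor
    · rintro ⟨hkK, hkN⟩
      refine ⟨hkK, fun x hx => hKP (Subgroup.mem_inf.mpr ⟨?_, ?_⟩)⟩
      · exact (gen 2 G).mul_mem (hKn.conj_mem k hkK x) ((gen 2 G).inv_mem hkK)
      · have h1 := (Subgroup.mem_normalizer_iff.mp hkN x⁻¹).mp ((P : Subgroup G).inv_mem hx)
        have h2 := (P : Subgroup G).mul_mem hx h1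
        have e : x * (k * x⁻¹ * k⁻¹) = x * k * x⁻¹ * k⁻¹ := by group
        rwa [e] at h2
    · rintro ⟨hkK, hk⟩
      refine ⟨hkK, ?_⟩
      have hc1 : ∀ x ∈ (P : Subgroup G), k * x * k⁻¹ ∈ (P : Subgroup G) := by
        intro x hx
        have h1 := hQP (hk x⁻¹ ((P : Subgroup G).inv_mem hx))
        have h2 := (P : Subgroup G).mul_mem hx h1
        have e : x * (x⁻¹ * k * x⁻¹⁻¹ * k⁻¹) = k * x * k⁻¹ := by group
        rwa [e] at h2
      have hc2 : ∀ x ∈ (P : Subgroup G), k⁻¹ * x * k ∈ (P : Subgroup G) := by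
        intro x hx
        have h1 := hQn.conj_mem _ (hk x hx) k⁻¹
        have h2 := (P : Subgroup G).mul_mem (hQP h1) hx
        have e : k⁻¹ * (x * k * x⁻¹ * k⁻¹) * k⁻¹⁻¹ * x = k⁻¹ * x * k := by group
        rwa [e] at h2
      rw [Subgroup.mem_normalizer_iff]
      intro h
      refine ⟨hc1 h, fun hh => ?_⟩
      have h1 := hc2 _ hh
      have e : k⁻¹ * (k * h * k⁻¹) * k = h := by group
      rwa [e] at h1
  have := Fintype.ofFinite G
  have := Fintype.ofFinite ↥(gen 2 G)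
  have := Fintype.ofFinite C
  have := Fintype.ofFinite ↥(Subgroup.normalizer ((P : Subgroup G) : Set G))
  have := Fintype.ofFinite ↥(C.subgroupOf (Subgroup.normalizer ((P : Subgroup G) : Set G)))
  have hPK : (P : Subgroup G) ≤ Subgroup.normalizer ((gen 2 G : Subgroup G) : Set G) := by
    rw [Subgroup.normalizer_eq_top (gen 2 G)]; exact le_top
  obtain ⟨n1, n2, n3⟩ := normSyl_main p (P : Subgroup G) (gen 2 G) Q C P.2 hPK hQK
    (fun k _ q hq => hQn.conj_mem q hq k) (IsPGroup.iff_card.mp hQp) hQsyl hCK hC'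
  have hNS : NS p (P : Subgroup G) (gen 2 G) C hCK := ⟨n1, n2, n3⟩
  exact exists_bijection (gen 2 G) (odd_index_gen_two G) P _ C rfl hC hCK hCN hNS hreal

end Cfsg.Agent.Lib.Helper21.RealP
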