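import Mathlib
import Cfsg.Agent.Lib.Helper81.BlockOrth
import Cfsg.Agent.Lib.Helper20.CharCongr
import Cfsg.Agent.Lib.Helper19.CliffordDeg
import Cfsg.Agent.Lib.Helper21.DefectCenter2
import Cfsg.Agent.Lib.Helper79.CharNorm

/-!
# Height zero characters of a block over a character of a normal subgroup
-/

set_option autoImplicit false

namespace Cfsg.Agent.Lib.Helper21.RelHt

open Cfsg Cfsg.Agent.Lib.Helper19 Cfsg.Agent.Lib.Helper20 Cfsg.Agent.Lib.Helper5
  Cfsg.Agent.Lib.Helper81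
open scoped ComplexConjugate

theorem count_arith {ι : Type*} [DecidableEq ι] (F : Finset ι) (p : ℕ) (hp : p.Prime)
    (m deg : ι → ℕ) (d : ℕ) (hdeg : ∀ i ∈ F, m i ≠ 0 → deg i = m i * d)
    (hsum : p ∣ ∑ i ∈ F, m i * deg i) :
    ((F.filter (fun i => ¬ p ∣ deg i ∧ m i ≠ 0)).card = 0 ∨
      2 ≤ (F.filter (fun i => ¬ p ∣ deg i ∧ m i ≠ 0)).card) ∧
    (p ≤ 3 → p ∣ (F.filter (fun i => ¬ p ∣ deg i ∧ m i ≠ 0)).card) := by
  classical
  set S := F.filter (fun i => ¬ p ∣ deg i ∧ m i ≠ 0) with hS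
  by_cases hE : S = ∅
  · rw [hE]; simp
  obtain ⟨i₀, hi₀⟩ := Finset.nonempty_iff_ne_empty.mpr hE
  have hmemS : ∀ i, i ∈ S ↔ i ∈ F ∧ ¬ p ∣ deg i ∧ m i ≠ 0 := fun i => by rw [hS, Finset.mem_filter]
  obtain ⟨hi₀F, hi₀p, hi₀m⟩ := (hmemS i₀).mp hi₀
  have hpd : ¬ p ∣ d := by
    intro h
    apply hi₀p
    rw [hdeg i₀ hi₀F hi₀m]
    exact Dvd.dvd.mul_left h _
  have e1 : ∑ i ∈ F, m i * deg i = d * ∑ i ∈ F, m i ^ 2 := by
    rw [Finset.mul_sum]
    apply Finset.sum_congr rfl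
    intro i hi
    by_cases h0 : m i = 0
    · rw [h0]; simp
    · rw [hdeg i hi h0]; ring
  rw [e1] at hsum
  have h2 : p ∣ ∑ i ∈ F, m i ^ 2 := (hp.dvd_mul.mp hsum).resolve_left hpd
  have e2 : ∑ i ∈ F, m i ^ 2 = ∑ i ∈ S, m i ^ 2 +
      ∑ i ∈ F.filter (fun i => ¬ (¬ p ∣ deg i ∧ m i ≠ 0)), m i ^ 2 :=
    (Finset.sum_filter_add_sum_filter_not F _ _).symm
  have h3 : p ∣ ∑ i ∈ F.filter (fun i => ¬ (¬ p ∣ deg i ∧ m i ≠ 0)), m i ^ 2 := by
    apply Finset.dvd_sum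
    intro i hi
    obtain ⟨hiF, hi2⟩ := Finset.mem_filter.mp hi
    by_cases h0 : m i = 0
    · rw [h0]; simp
    · have h4 : p ∣ deg i := by
        by_contra h
        exact hi2 ⟨h, h0⟩
      rw [hdeg i hiF h0] at h4
      exact Dvd.dvd.pow ((hp.dvd_mul.mp h4).resolve_right hpd) two_ne_zero
  have h5 : p ∣ ∑ i ∈ S, m i ^ 2 := by
    rw [e2] at h2
    exact (Nat.dvd_add_left h3).mp h2
  have hnd : ∀ i ∈ S, ¬ p ∣ m i := by
    intro i hi h
    obtain ⟨hiF, hip, him⟩ := (hmemS i).mp hi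
    apply hip
    rw [hdeg i hiF him]
    exact Dvd.dvd.mul_right h _
  constructor
  · right
    by_contra hlt
    have hpos : 0 < S.card := Finset.card_pos.mpr ⟨i₀, hi₀⟩
    have h1 : S.card = 1 := by omega
    obtain ⟨j, hj⟩ := Finset.card_eq_one.mp h1
    rw [hj, Finset.sum_singleton] at h5
    exact hnd j (by rw [hj]; exact Finset.mem_singleton_self j) (hp.dvd_of_dvd_pow h5)
  · intro hp3
    have hsq : ∀ i ∈ S, m i ^ 2 % p = 1 := by
      intro i hi
      have h := hnd i hi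
      have hp2 := hp.two_le
      have hcases : p = 2 ∨ p = 3 := by omega
      rcases hcases with rfl | rfl
      · have : m i % 2 = 1 := by omega
        rw [Nat.pow_mod, this]
      · have : m i % 3 = 1 ∨ m i % 3 = 2 := by omega
        rcases this with h' | h' <;> rw [Nat.pow_mod, h']
    have h6 : (∑ i ∈ S, m i ^ 2) % p = S.card % p := by
      rw [Finset.sum_nat_mod]
      rw [Finset.sum_congr rfl hsq]
      simp
    rw [Nat.dvd_iff_mod_eq_zero] at h5 ⊢
    rw [← h6, h5]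

section

variable {G : Type*} [Group G] [Fintype G] {p : ℕ} {M : Ideal AlgInt}

theorem dvd_sum_mult_deg [Fintype (IrrCharacter G)]
    (hM : IsPModular p M) (B : Set (IrrCharacter G))
    [DecidablePred (· ∈ B)]
    (hB : IsPBlock M B) (N : Subgroup G) [hN : N.Normal] [Fintype N] (θ : IrrCharacter N)
    (x : G) (hx : x ∉ N) (k : ℕ) (hxk : orderOf x = p ^ k)
    (m : IrrCharacter G → ℕ)
    (hm : ∀ χ : IrrCharacter G, classInner (fun n : N => (χ : G → ℂ) n) (θ : N → ℂ) = m χ) :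
    p ∣ ∑ χ ∈ Finset.univ.filter (· ∈ B), m χ * charDegree (χ : G → ℂ) := by
  classical
  have hp := hM.1
  have hxx : IsPPart p x x := ⟨1, mul_one x, Commute.one_right x, ⟨k, hxk⟩, by
    rw [orderOf_one]; exact hp.one_lt.ne' ∘ Nat.dvd_one.mp⟩
  have hBc : B = ↑(Finset.univ.filter (· ∈ B)) := by
    ext χ; simp
  have h1 : ∀ n : N, ∑ χ ∈ Finset.univ.filter (· ∈ B),
      (χ : G → ℂ) x * conj ((χ : G → ℂ) n) = 0 := by
    intro n
    obtain ⟨u, hu⟩ := exists_isPPart hp (n : G)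
    obtain ⟨j, hj⟩ := Cfsg.Agent.Lib.Helper21.isPPart_eq_zpow hp hu
    have huN : u ∈ N := hj ▸ N.zpow_mem n.2 j
    have hnc : ¬ IsConj x u := by
      intro hc
      obtain ⟨c, hc⟩ := isConj_iff.mp hc.symm
      apply hx
      rw [← hc]
      exact hN.conj_mem u huN c
    have := block_orth hM B hB hxx hu hnc
    rw [← finsum_mem_coe_finset, ← hBc]
    exact this
  have h2 : ∑ χ ∈ Finset.univ.filter (· ∈ B), (χ : G → ℂ) x * (m χ : ℂ) = 0 := by
    have e : ∀ χ : IrrCharacter G, ∑ n : N, (θ : N → ℂ) n * conj ((χ : G → ℂ) n) =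
        (Nat.card N : ℂ) * (m χ : ℂ) := by
      intro χ
      have h3 : classInner (θ : N → ℂ) (fun n : N => (χ : G → ℂ) n) = m χ := by
        rw [← classInner_conj_symm, hm χ, Complex.conj_natCast]
      unfold classInner at h3
      rw [← h3, ← mul_assoc, mul_inv_cancel₀ (by exact_mod_cast Nat.card_pos.ne'), one_mul]
    have h4 : ∑ n : N, (θ : N → ℂ) n * ∑ χ ∈ Finset.univ.filter (· ∈ B),
        (χ : G → ℂ) x * conj ((χ : G → ℂ) n) = 0 := by
      apply Finset.sum_eq_zero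
      intro n _
      rw [h1 n, mul_zero]
    simp only [Finset.mul_sum] at h4
    rw [Finset.sum_comm] at h4
    have h5 : ∑ χ ∈ Finset.univ.filter (· ∈ B), (Nat.card N : ℂ) * ((χ : G → ℂ) x * (m χ : ℂ)) = 0 := by
      rw [← h4]
      apply Finset.sum_congr rfl
      intro χ _
      rw [mul_left_comm, ← e χ, Finset.mul_sum]
      apply Finset.sum_congr rfl
      intro n _
      ring
    rw [← Finset.mul_sum] at h5
    exact (mul_eq_zero.mp h5).resolve_left (by exact_mod_cast Nat.card_pos.ne')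
  rw [← memLocalIdeal_natCast_iff hM]
  have h6 : ((∑ χ ∈ Finset.univ.filter (· ∈ B), m χ * charDegree (χ : G → ℂ) : ℕ) : ℂ) =
      ∑ χ ∈ Finset.univ.filter (· ∈ B), (m χ : ℂ) * -((χ : G → ℂ) (x * 1) - (χ : G → ℂ) 1) := by
    have h7 : ∑ χ ∈ Finset.univ.filter (· ∈ B), (m χ : ℂ) * -((χ : G → ℂ) (x * 1) - (χ : G → ℂ) 1) =
        ∑ χ ∈ Finset.univ.filter (· ∈ B), (m χ : ℂ) * (χ : G → ℂ) 1 -
          ∑ χ ∈ Finset.univ.filter (· ∈ B), (χ : G → ℂ) x * (m χ : ℂ) := by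
      rw [← Finset.sum_sub_distrib]
      apply Finset.sum_congr rfl
      intro χ _
      rw [mul_one]; ring
    rw [h7, h2, sub_zero]
    push_cast
    apply Finset.sum_congr rfl
    intro χ _
    rw [Cfsg.Agent.Lib.Helper79.IsCharacter.exists_degree (isCharacter_of_isIrrCharacter χ.2)]
  rw [h6]
  apply memLocalIdeal_sum hM
  intro χ _
  apply memLocalIdeal_mul_left hM (memLocalRing_natCast hM _)
  apply memLocalIdeal_neg
  exact isCharacter_mul_sub_memLocalIdeal hM (isCharacter_of_isIrrCharacter χ.2)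
    (Commute.one_right x) (k := k) (by rw [← hxk]; exact pow_orderOf_eq_one x)
    (by rw [orderOf_one]; exact hp.one_lt.ne' ∘ Nat.dvd_one.mp)

end

end Cfsg.Agent.Lib.Helper21.RelHt
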