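import Mathlib
import Cfsg.Agent.Lib.Helper83.IndNu

/-!
# The Frobenius–Schur indicator of a character induced from a linear character inverted by an
involution
-/

set_option autoImplicit false

namespace Cfsg.Agent.Lib.Helper21.SReal

open Cfsg Cfsg.Agent.Lib.Helper19 Cfsg.Agent.Lib.Helper20 Cfsg.Agent.Lib.Helper5
  Cfsg.Agent.Lib.Helper78 Cfsg.Agent.Lib.Helper83
open scoped ComplexConjugate

theorem fsNu_indFun_eq_one {G : Type*} [Group G] [Fintype G] (N I : Subgroup G) (hN : N.Normal)
    (hNI : N ≤ I) [Fintype I] [Fintype N] (ψ : I → ℂ) (hmul : ∀ a b : I, ψ (a * b) = ψ a * ψ b)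
    (z : G) (hz2 : z * z = 1) (hzI : ∀ y ∈ I, z * y * z⁻¹ ∈ I)
    (hzψ : ∀ y : I, ψ ⟨z * y * z⁻¹, hzI y y.2⟩ * ψ y = 1)
    (hker : ∀ s : G, z * s ∉ I → ∑ n : N, ψ ⟨s⁻¹ * n * s, hNI (by
      have := hN.conj_mem n n.2 s⁻¹
      rwa [inv_inv] at this)⟩ * ψ ⟨n, hNI n.2⟩ = 0) :
    fsNu (indFun I ψ) = 1 := by
  classical
  have hzinv : z⁻¹ = z := inv_eq_of_mul_eq_one_left hz2
  rw [fsNu_indFun]
  rw [← Finset.sum_filter_add_sum_filter_not Finset.univ (fun s : G => z * s ∈ I)]
  have h1 : ∑ s ∈ Finset.univ.filter (fun s : G => z * s ∈ I), extendByZero I ψ (s * s)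
      = (Nat.card I : ℂ) := by
    have e1 : ∑ s ∈ Finset.univ.filter (fun s : G => z * s ∈ I), extendByZero I ψ (s * s)
        = ∑ y : I, (1 : ℂ) := by
      symm
      apply Finset.sum_bij (fun (y : I) _ => z * (y : G))
      · intro y _
        refine Finset.mem_filter.mpr ⟨Finset.mem_univ _, ?_⟩
        rw [← mul_assoc, hz2, one_mul]
        exact y.2
      · intro a _ b _ hab
        exact Subtype.ext (mul_left_cancel hab)
      · intro s hs
        refine ⟨⟨z * s, (Finset.mem_filter.mp hs).2⟩, Finset.mem_univ _, ?_⟩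
        show z * (z * s) = s
        rw [← mul_assoc, hz2, one_mul]
      · intro y _
        have e2 : z * (y : G) * (z * (y : G))
            = ((⟨z * y * z⁻¹, hzI y y.2⟩ * y : I) : G) := by
          show _ = z * (y : G) * z⁻¹ * (y : G)
          rw [hzinv]; group
        rw [e2, extendByZero_coe, hmul, hzψ]
    rw [e1, Finset.sum_const, Finset.card_univ, nsmul_eq_mul, mul_one, Nat.card_eq_fintype_card]
  have h2 : ∑ s ∈ Finset.univ.filter (fun s : G => ¬ z * s ∈ I), extendByZero I ψ (s * s) = 0 := by
    rw [Finset.sum_filter]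
    set g : G → ℂ := fun s => if ¬ z * s ∈ I then extendByZero I ψ (s * s) else 0 with hg
    have h3 : (Nat.card N : ℂ) * ∑ s : G, g s = ∑ s : G, ∑ n : N, g (s * n) := by
      rw [Finset.sum_comm]
      have : ∀ n : N, ∑ s : G, g (s * n) = ∑ s : G, g s :=
        fun n => Equiv.sum_comp (Equiv.mulRight (n : G)) g
      simp only [this]
      rw [Finset.sum_const, Finset.card_univ, nsmul_eq_mul, Nat.card_eq_fintype_card]
    have h4 : ∀ s : G, ∑ n : N, g (s * n) = 0 := by
      intro s
      by_cases hs : z * s ∈ I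
      · apply Finset.sum_eq_zero
        intro n _
        have : z * (s * n) ∈ I := by
          rw [← mul_assoc]; exact I.mul_mem hs (hNI n.2)
        simp only [hg, this, not_true_eq_false, if_false]
      · have hsn : ∀ n : N, ¬ z * (s * n) ∈ I := by
          intro n h
          apply hs
          have := I.mul_mem h (I.inv_mem (hNI n.2))
          simpa [mul_assoc] using this
        have hconj : ∀ n : N, s⁻¹ * n * s ∈ N := by
          intro n
          have := hN.conj_mem n n.2 s⁻¹
          rwa [inv_inv] at this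
        have hsq : ∀ n : N, (s * n) * (s * n) = (s * s) * (s⁻¹ * n * s) * n := by
          intro n
          group
        by_cases hss : s * s ∈ I
        · have h5 := hker s hs
          have h6 : ∀ n : N, g (s * n) = ψ ⟨s * s, hss⟩ *
              (ψ ⟨s⁻¹ * n * s, hNI (hconj n)⟩ * ψ ⟨n, hNI n.2⟩) := by
            intro n
            simp only [hg, hsn n, not_false_eq_true, if_true]
            rw [hsq n, ← hmul, ← hmul]
            have e3 := extendByZero_coe I ψ
              (⟨s * s, hss⟩ * (⟨s⁻¹ * n * s, hNI (hconj n)⟩ * ⟨n, hNI n.2⟩))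
            rw [← e3]
            congr 1
            show s * s * (s⁻¹ * (n : G) * s) * (n : G) = s * s * (s⁻¹ * (n : G) * s * (n : G))
            group
          simp only [h6]
          rw [← Finset.mul_sum, h5, mul_zero]
        · apply Finset.sum_eq_zero
          intro n _
          simp only [hg, hsn n, not_false_eq_true, if_true]
          apply extendByZero_of_not_mem
          rw [hsq n]
          intro h
          apply hss
          have h6 := I.mul_mem (I.mul_mem h (I.inv_mem (hNI n.2))) (I.inv_mem (hNI (hconj n)))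
          simpa [mul_assoc] using h6
    simp only [h4, Finset.sum_const_zero] at h3
    rcases mul_eq_zero.mp h3 with h | h
    · exact absurd h (card_ne_zero_complex N)
    · exact h
  rw [h1, h2, add_zero, inv_mul_cancel₀ (card_ne_zero_complex I)]

end Cfsg.Agent.Lib.Helper21.SReal
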