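import Mathlib
import Cfsg.Agent.Lib.Helper83.LinCount
import Cfsg.Agent.Lib.Helper83.IndNu
import Cfsg.Agent.Lib.Helper83.CliffCorr

/-!
# Counting real linear characters against induced strongly real characters
-/

set_option autoImplicit false

namespace Cfsg.Agent.Lib.Helper21.SReal

open Cfsg Cfsg.Agent.Lib.Helper19 Cfsg.Agent.Lib.Helper20 Cfsg.Agent.Lib.Helper5
  Cfsg.Agent.Lib.Helper78 Cfsg.Agent.Lib.Helper83
open scoped ComplexConjugate

theorem card_linear_le {G : Type*} [Group G] [Fintype G] (N : Subgroup G) (hN : N.Normal)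
    (φ : IrrCharacter N) (I : Subgroup G)
    (hT : ∀ g : G, g ∈ I ↔ ∀ n : N,
      (φ : N → ℂ) ⟨g * n * g⁻¹, hN.conj_mem (n : G) n.2 g⟩ = (φ : N → ℂ) n)
    (hNI : N ≤ I) (ψ : IrrCharacter I) (hψ1 : (ψ : I → ℂ) 1 = 1)
    (hψext : ∀ n : N, (ψ : I → ℂ) ⟨n, hNI n.2⟩ = (φ : N → ℂ) n)
    (hlinN : ∀ lam : IrrCharacter G, charDegree (lam : G → ℂ) = 1 → fsNu (lam : G → ℂ) = 1 →
      ∀ n ∈ N, (lam : G → ℂ) n = 1)
    (hFnu : ∀ lam : IrrCharacter G, charDegree (lam : G → ℂ) = 1 → fsNu (lam : G → ℂ) = 1 →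
      fsNu (indFun I ((ψ : I → ℂ) * fun x : I => (lam : G → ℂ) x)) = 1)
    [Fintype (IrrCharacter G)] [DecidableEq (IrrCharacter G)]
    [DecidablePred (fun χ : IrrCharacter G => charDegree (χ : G → ℂ) = 1 ∧ fsNu (χ : G → ℂ) = 1)]
    [DecidablePred (fun χ : IrrCharacter G =>
      charDegree (χ : G → ℂ) = I.index ∧ fsNu (χ : G → ℂ) = 1)] :
    (Finset.univ.filter (fun χ : IrrCharacter G =>
      charDegree (χ : G → ℂ) = 1 ∧ fsNu (χ : G → ℂ) = 1)).card ≤
    I.index * (Finset.univ.filter (fun χ : IrrCharacter G =>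
      charDegree (χ : G → ℂ) = I.index ∧ fsNu (χ : G → ℂ) = 1)).card := by
  have : Fintype N := Fintype.ofFinite N
  have : Fintype I := Fintype.ofFinite I
  have := finite_irrCharacter (G := I)
  have := Fintype.ofFinite (IrrCharacter I)
  obtain ⟨hirr, horth, -⟩ := clifford_corr (hN := hN) N φ φ.2 I hT hNI
  set N' : Subgroup I := N.subgroupOf I with hN'
  have : Fintype N' := Fintype.ofFinite N'
  set φ' : N' → ℂ := fun x => (φ : N → ℂ) ⟨((x : I) : G), Subgroup.mem_subgroupOf.mp x.2⟩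
    with hφ'def
  have hφ' : IsIrrCharacter N' φ' := by
    have : φ' = (φ : N → ℂ) ∘ (Subgroup.subgroupOfEquivOfLe hNI) := by
      funext x
      rfl
    rw [this]
    exact isIrrCharacter_comp_equiv _ φ.2
  have hψN : ∀ x : N', (ψ : I → ℂ) x = φ' x := by
    intro x
    exact hψext ⟨((x : I) : G), Subgroup.mem_subgroupOf.mp x.2⟩
  have hlin1 : ∀ lam : IrrCharacter G, charDegree (lam : G → ℂ) = 1 → (lam : G → ℂ) 1 = 1 := by
    intro lam h
    rw [Cfsg.Agent.Lib.Helper82.isChar_one_eq (isCharacter_of_isIrrCharacter lam.2), h]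
    simp
  have hresc : ∀ lam : IrrCharacter G, IsCharacter I (fun x : I => (lam : G → ℂ) x) :=
    fun lam => isCharacter_restrict (isCharacter_of_isIrrCharacter lam.2) I
  have hψl : ∀ lam : IrrCharacter G, charDegree (lam : G → ℂ) = 1 →
      IsIrrCharacter I ((ψ : I → ℂ) * fun x : I => (lam : G → ℂ) x) := by
    intro lam h
    rw [mul_comm]
    exact Cfsg.Agent.Lib.Helper82.isIrr_linear_mul (hresc lam) (hlin1 lam h) ψ.2
  have hover : ∀ lam : IrrCharacter G, charDegree (lam : G → ℂ) = 1 → fsNu (lam : G → ℂ) = 1 →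
      classInner (indFun N' φ') ((ψ : I → ℂ) * fun x : I => (lam : G → ℂ) x) ≠ 0 := by
    intro lam h hnu
    rw [frobenius_reciprocity N' φ' _
      (isClassFunction_of_isCharacter (isCharacter_of_isIrrCharacter (hψl lam h)))]
    have : (fun x : N' => ((ψ : I → ℂ) * fun x : I => (lam : G → ℂ) x) x) = φ' := by
      funext x
      rw [Pi.mul_apply, hψN, hlinN lam h hnu _ (Subgroup.mem_subgroupOf.mp x.2), mul_one]
    rw [this, classInner_irr_self hφ']
    exact one_ne_zero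
  have hFirr : ∀ lam : IrrCharacter G, charDegree (lam : G → ℂ) = 1 → fsNu (lam : G → ℂ) = 1 →
      IsIrrCharacter G (indFun I ((ψ : I → ℂ) * fun x : I => (lam : G → ℂ) x)) := by
    intro lam h hnu
    exact hirr ⟨_, hψl lam h⟩ (hover lam h hnu)
  let f : IrrCharacter G → IrrCharacter G := fun lam =>
    if h : charDegree (lam : G → ℂ) = 1 ∧ fsNu (lam : G → ℂ) = 1 then ⟨_, hFirr lam h.1 h.2⟩
    else lam
  have hf : ∀ lam : IrrCharacter G, charDegree (lam : G → ℂ) = 1 → fsNu (lam : G → ℂ) = 1 →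
      ((f lam : IrrCharacter G) : G → ℂ)
        = indFun I ((ψ : I → ℂ) * fun x : I => (lam : G → ℂ) x) := by
    intro lam h hnu
    simp only [f, dif_pos (And.intro h hnu)]
  have hψne : ∀ x : I, (ψ : I → ℂ) x ≠ 0 :=
    Cfsg.Agent.Lib.Helper82.isChar_linear_ne_zero (isCharacter_of_isIrrCharacter ψ.2) hψ1
  have hres : ∀ lam lam₀ : IrrCharacter G, charDegree (lam : G → ℂ) = 1 →
      fsNu (lam : G → ℂ) = 1 → charDegree (lam₀ : G → ℂ) = 1 → fsNu (lam₀ : G → ℂ) = 1 →
      f lam = f lam₀ →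
      (fun x : I => (lam : G → ℂ) x) = fun x : I => (lam₀ : G → ℂ) x := by
    intro lam lam₀ h hnu h₀ hnu₀ heq
    have h1 : indFun I ((ψ : I → ℂ) * fun x : I => (lam : G → ℂ) x)
        = indFun I ((ψ : I → ℂ) * fun x : I => (lam₀ : G → ℂ) x) := by
      rw [← hf lam h hnu, ← hf lam₀ h₀ hnu₀, heq]
    have h2 : ((ψ : I → ℂ) * fun x : I => (lam : G → ℂ) x)
        = ((ψ : I → ℂ) * fun x : I => (lam₀ : G → ℂ) x) := by
      by_contra hne
      have h3 := horth ⟨_, hψl lam h⟩ ⟨_, hψl lam₀ h₀⟩ (hover lam h hnu) (hover lam₀ h₀ hnu₀)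
        (fun h' => hne (congrArg Subtype.val h').symm)
      have h4 : classInner (indFun I ((ψ : I → ℂ) * fun x : I => (lam : G → ℂ) x))
          (indFun I ((ψ : I → ℂ) * fun x : I => (lam₀ : G → ℂ) x)) = 0 := h3
      rw [← h1, classInner_irr_self (hirr ⟨_, hψl lam h⟩ (hover lam h hnu))] at h4
      exact one_ne_zero h4
    funext x
    have h5 := congrFun h2 x
    rw [Pi.mul_apply, Pi.mul_apply] at h5
    exact mul_left_cancel₀ (hψne x) h5
  apply Finset.card_le_mul_card_image_of_maps_to (f := f)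
  · intro lam hl
    obtain ⟨h, hnu⟩ := (Finset.mem_filter.mp hl).2
    refine Finset.mem_filter.mpr ⟨Finset.mem_univ _, ?_, ?_⟩
    · have h1 : ((charDegree ((f lam : IrrCharacter G) : G → ℂ) : ℕ) : ℂ)
          = ((I.index : ℕ) : ℂ) := by
        rw [← Cfsg.Agent.Lib.Helper82.isChar_one_eq (isCharacter_of_isIrrCharacter (f lam).2),
          hf lam h hnu, indFun_apply_one, Pi.mul_apply, hψ1]
        have : (lam : G → ℂ) ((1 : I) : G) = 1 := hlin1 lam h
        rw [this, mul_one, mul_one]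
      exact_mod_cast h1
    · rw [hf lam h hnu]
      exact hFnu lam h hnu
  · intro b _
    by_cases hemp : (Finset.univ.filter (fun x : IrrCharacter G => charDegree (x : G → ℂ) = 1 ∧
        fsNu (x : G → ℂ) = 1)).filter (fun a => f a = b) = ∅
    · rw [hemp]
      simp
    · obtain ⟨lam₀, hl₀⟩ := Finset.nonempty_iff_ne_empty.mpr hemp
      obtain ⟨h₀, hnu₀⟩ := (Finset.mem_filter.mp (Finset.mem_filter.mp hl₀).1).2
      have hb := (Finset.mem_filter.mp hl₀).2
      apply card_extensions_le I (fun x : I => (lam₀ : G → ℂ) x)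
        (Cfsg.Agent.Lib.Helper82.isChar_linear_isIrr (hresc lam₀) (hlin1 lam₀ h₀))
      intro lam hl
      obtain ⟨h, hnu⟩ := (Finset.mem_filter.mp (Finset.mem_filter.mp hl).1).2
      exact hres lam lam₀ h hnu h₀ hnu₀ ((Finset.mem_filter.mp hl).2.trans hb.symm)

end Cfsg.Agent.Lib.Helper21.SReal
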