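import Mathlib
import Cfsg.Agent.Lib.Helper64.Orb3Grp

/-!
# Group theory for `N ⋊ P`, `P` a `2`-group, `N` the unique minimal normal subgroup
-/

set_option autoImplicit false

namespace Cfsg.Agent.Lib.Helper21.SReal

theorem exists_decomp {G : Type*} [Group G] (N P : Subgroup G) (hN : N.Normal)
    (hprod : N ⊔ P = ⊤) (g : G) : ∃ n ∈ N, ∃ h ∈ P, g = n * h := by
  have hg : g ∈ N ⊔ P := hprod ▸ Subgroup.mem_top g
  rw [← SetLike.mem_coe, Subgroup.normal_mul] at hg
  obtain ⟨n, hn, h, hh, rfl⟩ := Set.mem_mul.mp hg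
  exact ⟨n, hn, h, hh, rfl⟩

theorem exists_inverting_involution {G : Type*} [Group G] [Finite G] (N P : Subgroup G)
    (hN : N.Normal) (hNc : ∀ a ∈ N, ∀ b ∈ N, a * b = b * a) (hP : IsPGroup 2 P) (hP1 : P ≠ ⊥)
    (hdisj : N ⊓ P = ⊥) (hprod : N ⊔ P = ⊤)
    (hmin : N ≠ ⊥ ∧ ∀ M : Subgroup G, M.Normal → M ≠ ⊥ → N ≤ M) :
    ∃ z ∈ P, z * z = 1 ∧ (∀ h ∈ P, z * h = h * z) ∧ ∀ n ∈ N, z * n * z⁻¹ = n⁻¹ := by
  have : Fact (Nat.Prime 2) := ⟨Nat.prime_two⟩
  have hnt : Nontrivial P := (Subgroup.nontrivial_iff_ne_bot P).mpr hP1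
  have hcen : Nontrivial (Subgroup.center P) := hP.center_nontrivial
  obtain ⟨k, hk⟩ := IsPGroup.iff_card.mp (hP.to_subgroup (Subgroup.center P))
  have hk0 : k ≠ 0 := by
    rintro rfl
    rw [pow_zero] at hk
    have := Finite.one_lt_card (α := Subgroup.center P)
    omega
  obtain ⟨z₀, hz₀⟩ := exists_prime_orderOf_dvd_card' (G := Subgroup.center P) 2
    (hk ▸ dvd_pow_self 2 hk0)
  obtain ⟨z, hz⟩ : ∃ z : G, z = ((z₀ : P) : G) := ⟨_, rfl⟩
  have hzP : z ∈ P := hz ▸ (z₀ : P).2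
  have hz2 : z * z = 1 := by
    have h1 : z₀ ^ 2 = 1 := by rw [← hz₀]; exact pow_orderOf_eq_one z₀
    have h2 := congrArg (fun w : Subgroup.center P => ((w : P) : G)) h1
    simp only [Subgroup.coe_pow, Subgroup.coe_one] at h2
    rw [hz, ← pow_two]
    exact h2
  have hz1 : z ≠ 1 := by
    intro h
    have h1 : z₀ = 1 := by
      apply Subtype.ext
      apply Subtype.ext
      rw [← hz, h]; rfl
    rw [h1, orderOf_one] at hz₀
    omega
  have hzc : ∀ h ∈ P, z * h = h * z := by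
    intro h hh
    have h1 := Subgroup.mem_center_iff.mp z₀.2 ⟨h, hh⟩
    have h2 := congrArg Subtype.val h1
    rw [hz]
    exact h2.symm
  have hzinv : z⁻¹ = z := inv_eq_of_mul_eq_one_left hz2
  refine ⟨z, hzP, hz2, hzc, ?_⟩
  -- the fixed points of `z` on `N`
  have hMn : (N ⊓ Subgroup.centralizer {z}).Normal := by
    constructor
    intro m hm g
    obtain ⟨hmN, hmz⟩ := Subgroup.mem_inf.mp hm
    rw [Subgroup.mem_centralizer_singleton_iff] at hmz
    obtain ⟨n, hn, h, hh, rfl⟩ := exists_decomp N P hN hprod g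
    have h1 : h * m * h⁻¹ ∈ N := hN.conj_mem m hmN h
    have h2 : n * h * m * (n * h)⁻¹ = h * m * h⁻¹ := by
      have h3 : n * (h * m * h⁻¹) = (h * m * h⁻¹) * n := hNc n hn _ h1
      calc n * h * m * (n * h)⁻¹ = (n * (h * m * h⁻¹)) * n⁻¹ := by group
        _ = h * m * h⁻¹ := by rw [h3]; group
    rw [h2]
    refine Subgroup.mem_inf.mpr ⟨h1, ?_⟩
    rw [Subgroup.mem_centralizer_singleton_iff]
    have e1 : z * h = h * z := hzc h hh
    have e2 : z * h⁻¹ = h⁻¹ * z := hzc h⁻¹ (P.inv_mem hh)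
    calc h * m * h⁻¹ * z = h * m * (h⁻¹ * z) := by group
      _ = h * m * (z * h⁻¹) := by rw [e2]
      _ = h * (m * z) * h⁻¹ := by group
      _ = h * (z * m) * h⁻¹ := by rw [hmz]
      _ = (h * z) * m * h⁻¹ := by group
      _ = (z * h) * m * h⁻¹ := by rw [e1]
      _ = z * (h * m * h⁻¹) := by group
  have hMb : N ⊓ Subgroup.centralizer {z} = ⊥ := by
    by_contra hne
    have hle := hmin.2 _ hMn hne
    have hzN : ∀ n ∈ N, n * z = z * n := fun n hn =>
      Subgroup.mem_centralizer_singleton_iff.mp (Subgroup.mem_inf.mp (hle hn)).2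
    have hzcen : z ∈ Subgroup.center G := by
      rw [Subgroup.mem_center_iff]
      intro g
      obtain ⟨n, hn, h, hh, rfl⟩ := exists_decomp N P hN hprod g
      calc n * h * z = n * (h * z) := by group
        _ = n * (z * h) := by rw [hzc h hh]
        _ = (n * z) * h := by group
        _ = (z * n) * h := by rw [hzN n hn]
        _ = z * (n * h) := by group
    have hZn : (Subgroup.zpowers z).Normal := by
      constructor
      intro w hw g
      have hwc : w ∈ Subgroup.center G :=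
        (Subgroup.zpowers_le.mpr hzcen) hw
      have : g * w * g⁻¹ = w := by
        rw [(Subgroup.mem_center_iff.mp hwc) g]; group
      rwa [this]
    have hZb : Subgroup.zpowers z ≠ ⊥ := by
      intro h
      exact hz1 (Subgroup.zpowers_eq_bot.mp h)
    have h3 : N ≤ P := (hmin.2 _ hZn hZb).trans (Subgroup.zpowers_le.mpr hzP)
    apply hmin.1
    rw [← hdisj]
    exact (inf_eq_left.mpr h3).symm
  intro n hn
  have h1 : z * n * z⁻¹ ∈ N := hN.conj_mem n hn z
  have h2 : n * (z * n * z⁻¹) ∈ N ⊓ Subgroup.centralizer {z} := by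
    refine Subgroup.mem_inf.mpr ⟨N.mul_mem hn h1, ?_⟩
    rw [Subgroup.mem_centralizer_singleton_iff]
    have h3 : n * (z * n * z⁻¹) = (z * n * z⁻¹) * n := hNc n hn _ h1
    rw [hzinv] at h3 ⊢
    calc n * (z * n * z) * z = n * z * n * (z * z) := by group
      _ = n * z * n := by rw [hz2, mul_one]
      _ = (z * z) * n * z * n := by rw [hz2, one_mul]
      _ = z * ((z * n * z) * n) := by group
      _ = z * (n * (z * n * z)) := by rw [h3]
  rw [hMb, Subgroup.mem_bot] at h2
  exact (eq_inv_of_mul_eq_one_right h2)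

/-- projection of a semidirect product onto the complement -/
theorem exists_projection {G : Type*} [Group G] (N P : Subgroup G) (hN : N.Normal)
    (hdisj : N ⊓ P = ⊥) (hprod : N ⊔ P = ⊤) :
    ∃ π : G →* P, (∀ n ∈ N, π n = 1) ∧ (∀ h : P, π h = h) := by
  have hc : N.IsComplement' P :=
    Subgroup.isComplement'_of_disjoint_and_mul_eq_univ (disjoint_iff.mpr hdisj)
      (by rw [← Subgroup.normal_mul, hprod]; rfl)
  obtain ⟨F, h1, h2⟩ := Cfsg.Agent.Lib.Helper64.exists_hom_of_isComplement' N P hc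
    (1 : N →* P) (MonoidHom.id P) (by intro k n; simp)
  exact ⟨F, fun n hn => h1 ⟨n, hn⟩, h2⟩

end Cfsg.Agent.Lib.Helper21.SReal
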