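import Mathlib
import Cfsg.Agent.Lib.Helper21.SRealA
import Cfsg.Agent.Lib.Helper21.SRealB
import Cfsg.Agent.Lib.Helper21.SRealC
import Cfsg.Agent.Lib.Helper5.LinExt
import Cfsg.Agent.Lib.Helper5.Inertia
import Cfsg.Agent.Lib.Helper4.CharConj

/-!
# `N ⋊ P`: real linear characters against strongly real characters of even degree
-/

set_option autoImplicit false

namespace Cfsg.Agent.Lib.Helper21.SReal

open Cfsg Cfsg.Agent.Lib.Helper19 Cfsg.Agent.Lib.Helper20 Cfsg.Agent.Lib.Helper5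
  Cfsg.Agent.Lib.Helper78 Cfsg.Agent.Lib.Helper83 Cfsg.Agent.Lib.Helper82
open scoped ComplexConjugate

theorem exists_even_degree_count {G : Type*} [Group G] [Fintype G] (N P : Subgroup G)
    (hN : N.Normal) (q : ℕ) [Fact q.Prime] (hq : q ≠ 2) (hNel : IsElementaryAbelian q N)
    (hP : IsPGroup 2 P) (hP1 : P ≠ ⊥) (hdisj : N ⊓ P = ⊥) (hprod : N ⊔ P = ⊤)
    (hmin : N ≠ ⊥ ∧ ∀ M : Subgroup G, M.Normal → M ≠ ⊥ → N ≤ M)
    [Fintype (IrrCharacter G)] [DecidableEq (IrrCharacter G)] :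
    ∃ t : ℕ, 2 ∣ t ∧ ∀ [DecidablePred (fun χ : IrrCharacter G =>
        charDegree (χ : G → ℂ) = 1 ∧ fsNu (χ : G → ℂ) = 1)]
      [DecidablePred (fun χ : IrrCharacter G =>
        charDegree (χ : G → ℂ) = t ∧ fsNu (χ : G → ℂ) = 1)],
      (Finset.univ.filter (fun χ : IrrCharacter G =>
        charDegree (χ : G → ℂ) = 1 ∧ fsNu (χ : G → ℂ) = 1)).card ≤
      t * (Finset.univ.filter (fun χ : IrrCharacter G =>
        charDegree (χ : G → ℂ) = t ∧ fsNu (χ : G → ℂ) = 1)).card := by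
  classical
  have hqp : q.Prime := Fact.out
  have hqodd : Odd q := hqp.odd_of_ne_two hq
  have : Fintype N := Fintype.ofFinite N
  have hNc : ∀ a ∈ N, ∀ b ∈ N, a * b = b * a := by
    intro a ha b hb
    exact congrArg Subtype.val (hNel.1.is_comm.comm (⟨a, ha⟩ : N) ⟨b, hb⟩)
  obtain ⟨z, hzP, hz2, hzc, hzN⟩ := exists_inverting_involution N P hN hNc hP hP1 hdisj hprod hmin
  have hzinv : z⁻¹ = z := inv_eq_of_mul_eq_one_left hz2
  obtain ⟨π, hπN, hπP⟩ := exists_projection N P hN hdisj hprod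
  -- a nontrivial linear character of `N`
  obtain ⟨x₀, hx₀⟩ := (Subgroup.ne_bot_iff_exists_ne_one).mp hmin.1
  have hcomm : commutator N = ⊥ := by
    rw [commutator_def, Subgroup.commutator_eq_bot_iff_le_centralizer]
    intro a _
    rw [Subgroup.mem_centralizer_iff]
    intro b _
    exact hNel.1.is_comm.comm b a
  obtain ⟨lam, hlamc, hlam1, hlamx⟩ := exists_linear_ne_one (G := N) (x := x₀)
    (by rw [hcomm, Subgroup.mem_bot]; exact hx₀)
  have hlamirr : IsIrrCharacter N lam := isChar_linear_isIrr hlamc hlam1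
  have hlammul := isChar_linear_mul hlamc hlam1
  have hlamq : ∀ n : N, lam n ^ q = 1 := by
    intro n
    rw [← isChar_linear_pow hlamc hlam1]
    have : n ^ q = 1 := Subtype.ext (hNel.2 n n.2)
    rw [this, hlam1]
  -- conjugation by `z`
  have hcjz : cjF hN lam z = fun n => conj (lam n) := by
    funext n
    rw [cjF_apply, ← isChar_inv hlamc]
    congr 1
    exact Subtype.ext (hzN n n.2)
  have hcjconj : ∀ (f : N → ℂ) (g : G), cjF hN (fun n => conj (f n)) g
      = fun n => conj (cjF hN f g n) := fun f g => rfl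
  obtain ⟨I, hI⟩ : ∃ I : Subgroup G, I = inertia hN lam := ⟨_, rfl⟩
  have hmemI : ∀ g : G, g ∈ I ↔ cjF hN lam g = lam := fun g => by rw [hI]; exact mem_inertia hN lam g
  have hT : ∀ g : G, g ∈ I ↔ ∀ n : N,
      lam ⟨g * n * g⁻¹, hN.conj_mem (n : G) n.2 g⟩ = lam n := fun g => by
    rw [hI]; exact mem_inertia' hN lam g
  have hNI : N ≤ I := hI ▸ le_inertia hN (isClassFunction_of_isCharacter hlamc)
  have : Fintype I := Fintype.ofFinite I
  have hzI : ∀ y ∈ I, z * y * z⁻¹ ∈ I := by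
    intro y hy
    rw [hmemI] at hy ⊢
    rw [← cjF_cjF, ← cjF_cjF, hcjz, hcjconj, hy, hcjconj, hzinv, hcjz]
    funext n
    simp
  have hznot : z ∉ I := by
    intro hz
    rw [hmemI, hcjz] at hz
    apply hlamx
    have h1 : conj (lam x₀) = lam x₀ := congrFun hz x₀
    have h2 := isChar_linear_mul_conj hlamc hlam1 x₀
    rw [h1] at h2
    obtain ⟨k, hk⟩ := hqodd
    have h3 := hlamq x₀
    rw [hk, pow_succ, pow_mul, pow_two, h2, one_pow, one_mul] at h3
    exact h3
  have hIeven : 2 ∣ I.index := by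
    obtain ⟨k, hk⟩ := IsPGroup.iff_card.mp hP
    have hc : N.IsComplement' P :=
      Subgroup.isComplement'_of_disjoint_and_mul_eq_univ (disjoint_iff.mpr hdisj)
        (by rw [← Subgroup.normal_mul, hprod]; rfl)
    have h1 : N.index = 2 ^ k := by rw [hc.symm.index_eq_card, hk]
    have h2 : I.index ∣ 2 ^ k := h1 ▸ Subgroup.index_dvd_of_le hNI
    obtain ⟨j, -, hj⟩ := (Nat.dvd_prime_pow Nat.prime_two).mp h2
    have hj0 : j ≠ 0 := by
      rintro rfl
      rw [pow_zero, Subgroup.index_eq_one] at hj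
      exact hznot (hj ▸ Subgroup.mem_top z)
    rw [hj]
    exact dvd_pow_self 2 hj0
  -- the canonical extension
  have hpart : ∀ g : G, g * ((π g : P) : G)⁻¹ ∈ N := by
    intro g
    obtain ⟨n, hn, h, hh, rfl⟩ := exists_decomp N P hN hprod g
    have : π (n * h) = ⟨h, hh⟩ := by
      rw [map_mul, hπN n hn, one_mul]
      exact hπP ⟨h, hh⟩
    rw [this]
    simpa using hn
  obtain ⟨Λ, hΛ⟩ : ∃ Λ : G → ℂ, Λ = fun g => lam ⟨g * ((π g : P) : G)⁻¹, hpart g⟩ := ⟨_, rfl⟩
  have hΛN : ∀ n : N, Λ n = lam n := by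
    intro n
    rw [hΛ]
    show lam _ = lam n
    congr 1
    apply Subtype.ext
    show (n : G) * ((π (n : G) : P) : G)⁻¹ = n
    rw [hπN n n.2]; simp
  have hπI : ∀ a ∈ I, ((π a : P) : G) ∈ I := by
    intro a ha
    have h1 := I.mul_mem (I.inv_mem (hNI (hpart a))) ha
    have e : (a * ((π a : P) : G)⁻¹)⁻¹ * a = ((π a : P) : G) := by group
    rwa [e] at h1
  have hΛmul : ∀ a ∈ I, ∀ b : G, Λ (a * b) = Λ a * Λ b := by
    intro a ha b
    rw [hΛ]
    show lam _ = lam _ * lam _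
    have h1 := (hT _).mp (hπI a ha) ⟨b * ((π b : P) : G)⁻¹, hpart b⟩
    rw [← h1, ← hlammul]
    congr 1
    apply Subtype.ext
    show a * b * ((π (a * b) : P) : G)⁻¹ = a * ((π a : P) : G)⁻¹ *
      (((π a : P) : G) * (b * ((π b : P) : G)⁻¹) * ((π a : P) : G)⁻¹)
    rw [map_mul, Subgroup.coe_mul]
    group
  have hΛz : ∀ y : G, Λ (z * y * z⁻¹) = conj (Λ y) := by
    intro y
    rw [hΛ]
    show lam _ = conj (lam _)
    rw [← isChar_inv hlamc]
    congr 1
    apply Subtype.ext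
    show z * y * z⁻¹ * ((π (z * y * z⁻¹) : P) : G)⁻¹ = (y * ((π y : P) : G)⁻¹)⁻¹
    rw [← hzN _ (hpart y)]
    have h1 : ((π (z * y * z⁻¹) : P) : G) = z * ((π y : P) : G) * z⁻¹ := by
      rw [map_mul, map_mul, map_inv]
      have : π z = ⟨z, hzP⟩ := hπP ⟨z, hzP⟩
      rw [this]
      rfl
    rw [h1]
    group
  have hΛ1 : Λ 1 = 1 := by
    have := hΛN 1
    rw [hlam1] at this
    exact this
  let ψhom : I →* ℂ :=
    { toFun := fun y => Λ y
      map_one' := hΛ1
      map_mul' := fun a b => hΛmul a a.2 b }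
  have hψirr : IsIrrCharacter I (fun y : I => Λ y) := isIrr_of_hom (G := I) ψhom.toHomUnits
  have hΛnorm : ∀ y : G, Λ y * conj (Λ y) = 1 := by
    intro y
    rw [hΛ]
    exact isChar_linear_mul_conj hlamc hlam1 _
  -- real linear characters
  have hlin1 : ∀ l : IrrCharacter G, charDegree (l : G → ℂ) = 1 → (l : G → ℂ) 1 = 1 := by
    intro l h
    rw [isChar_one_eq (isCharacter_of_isIrrCharacter l.2), h]
    simp
  have hsq : ∀ l : IrrCharacter G, charDegree (l : G → ℂ) = 1 → fsNu (l : G → ℂ) = 1 →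
      ∀ x : G, (l : G → ℂ) x * (l : G → ℂ) x = 1 := by
    intro l h hnu x
    have hre : ((l : G → ℂ) x).im = 0 := by
      by_contra hx
      have := (fsNu_irr l.2).2.mpr ⟨x, hx⟩
      rw [hnu] at this
      exact one_ne_zero this
    have h1 := isChar_linear_mul_conj (isCharacter_of_isIrrCharacter l.2) (hlin1 l h) x
    rwa [Complex.conj_eq_iff_im.mpr hre] at h1
  have hlinN : ∀ l : IrrCharacter G, charDegree (l : G → ℂ) = 1 → fsNu (l : G → ℂ) = 1 →
      ∀ n ∈ N, (l : G → ℂ) n = 1 := by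
    intro l h hnu n hn
    have h2 := hsq l h hnu n
    have h3 : (l : G → ℂ) n ^ q = 1 := by
      rw [← isChar_linear_pow (isCharacter_of_isIrrCharacter l.2) (hlin1 l h), hNel.2 n hn,
        hlin1 l h]
    obtain ⟨k, hk⟩ := hqodd
    rw [hk, pow_succ, pow_mul, pow_two, h2, one_pow, one_mul] at h3
    exact h3
  refine ⟨I.index, hIeven, ?_⟩
  intro _ _
  apply card_linear_le N hN ⟨lam, hlamirr⟩ I hT hNI ⟨_, hψirr⟩ hΛ1 (fun n => hΛN n) hlinN
  intro l h hnu
  have hlc := isCharacter_of_isIrrCharacter l.2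
  have hlmul := isChar_linear_mul hlc (hlin1 l h)
  have hlcl := isClassFunction_of_isCharacter hlc
  apply fsNu_indFun_eq_one N I hN hNI _ _ z hz2 hzI
  · intro y
    show Λ (z * y * z⁻¹) * (l : G → ℂ) (z * y * z⁻¹) * (Λ y * (l : G → ℂ) y) = 1
    rw [hΛz, hlcl y z]
    calc conj (Λ y) * (l : G → ℂ) y * (Λ y * (l : G → ℂ) y)
        = (Λ y * conj (Λ y)) * ((l : G → ℂ) y * (l : G → ℂ) y) := by ring
      _ = 1 := by rw [hΛnorm, hsq l h hnu, one_mul]
  · intro s hs
    have hconj : ∀ n : N, s⁻¹ * n * s ∈ N := by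
      intro n
      have := hN.conj_mem n n.2 s⁻¹
      rwa [inv_inv] at this
    have hne : cjF hN lam s⁻¹ ≠ fun n => conj (lam n) := by
      intro heq
      apply hs
      rw [← hcjz] at heq
      have h3 := congrArg (fun f => cjF hN f z⁻¹) heq
      simp only [cjF_cjF, mul_inv_cancel, cjF_one] at h3
      have h4 : s⁻¹ * z⁻¹ ∈ I := (hmemI _).mpr h3
      have h5 := I.inv_mem h4
      simpa using h5
    have h0 := classInner_irr_ne (isIrrCharacter_cjF hN hlamirr s⁻¹)
      (Cfsg.Agent.Lib.Helper4.isIrrCharacter_conj hlamirr) hne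
    unfold classInner at h0
    rcases mul_eq_zero.mp h0 with h' | h'
    · exact absurd (inv_eq_zero.mp h') (card_ne_zero_complex N)
    · rw [← h']
      apply Finset.sum_congr rfl
      intro n _
      show Λ (s⁻¹ * n * s) * (l : G → ℂ) (s⁻¹ * n * s) * (Λ n * (l : G → ℂ) n) = _
      rw [hlinN l h hnu _ (hconj n), hlinN l h hnu _ n.2, mul_one, mul_one, hΛN n,
        hΛN ⟨_, hconj n⟩, cjF_apply, Complex.conj_conj]
      congr 2
      apply Subtype.ext
      simp
  · intro a b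
    show Λ ((a : G) * b) * (l : G → ℂ) ((a : G) * b) = Λ a * (l : G → ℂ) a * (Λ b * (l : G → ℂ) b)
    rw [hΛmul a a.2 b, hlmul]
    ring

end Cfsg.Agent.Lib.Helper21.SReal
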